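import Groth.Agent.Gaga.H975.Cut
import Groth.Agent.CohqB.HomSheaf

/-!
# Sections of analytifications

`pre U`: the open set of complex points of an open `U` of the scheme.  For `M : X.Modules`, `an m : Sec M^an (pre U)`
is the image of `m : Γ(M, U)` under the unit of the adjunction.
`adj f : M^an ⟶ P` is the morphism attached to `f : M ⟶ anPush P`.
-/

set_option autoImplicit false

open CategoryTheory TopologicalSpace Opposite AlgebraicGeometry

noncomputable section

namespace Groth.Agent.Gaga.H975.AnSec

open Groth.Agent.Gaga.H975.ModSec Groth.Agent.Gaga.H975.HomMod Groth.Agent.Gaga.H975.Cut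

variable {X : Scheme.{0}} [X.Over An.SC]

/-- The complex points of an open set. -/
def pre (U : X.Opens) : Opens (An.top X) := (An.baseF X).obj U

theorem pre_mono {U V : X.Opens} (h : U ≤ V) : pre U ≤ pre V := fun _ hx => h hx

theorem pre_inf (U V : X.Opens) : pre (U ⊓ V) = pre U ⊓ pre V := rfl

theorem mem_pre (U : X.Opens) (x : An.Pts X) : (show An.top X from x) ∈ pre U ↔ x.pt ∈ U := Iff.rfl

/-- Regular functions as holomorphic functions. -/
def toHol (U : X.Opens) : Γ(X, U) →+* O (An.hol X) (pre U) := (An.toHolApp U).hom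

theorem toHol_res {U V : X.Opens} (h : V ≤ U) (r : Γ(X, U)) :
    toHol V (X.presheaf.map (homOfLE h).op r) = resO (pre_mono h) (toHol U r) :=
  congr($((An.anToScheme X).c.naturality (homOfLE h).op) r)

/-- Sections of the direct image. -/
def toPush {P : An.AnMod X} {U : X.Opens} (s : Sec P (pre U)) : Γ((An.anPush X).obj P, U) := s

/-- Sections of the direct image. -/
def ofPush {P : An.AnMod X} {U : X.Opens} (s : Γ((An.anPush X).obj P, U)) : Sec P (pre U) := s

theorem ofPush_add {P : An.AnMod X} {U : X.Opens} (s t : Γ((An.anPush X).obj P, U)) :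
    ofPush (s + t) = ofPush s + ofPush t := rfl

theorem ofPush_smul {P : An.AnMod X} {U : X.Opens} (r : Γ(X, U)) (s : Γ((An.anPush X).obj P, U)) :
    ofPush (r • s) = toHol U r • ofPush s := rfl

theorem ofPush_res {P : An.AnMod X} {U V : X.Opens} (h : V ≤ U) (s : Γ((An.anPush X).obj P, U)) :
    ofPush (((An.anPush X).obj P).presheaf.map (homOfLE h).op s) = res P (pre_mono h) (ofPush s) := rfl

theorem ofPush_app {P Q : An.AnMod X} (f : P ⟶ Q) {U : X.Opens} (s : Γ((An.anPush X).obj P, U)) :
    ofPush (((An.anPush X).map f).app U s) = app f (pre U) (ofPush s) := rfl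

/-- The analytification of a section. -/
def an {M : X.Modules} {U : X.Opens} (m : Γ(M, U)) : Sec ((An.analytify X).obj M) (pre U) :=
  ofPush (((An.analytifyAdj X).unit.app M).app U m)

theorem an_add {M : X.Modules} {U : X.Opens} (m m' : Γ(M, U)) : an (m + m') = an m + an m' := by
  unfold an
  rw [map_add, ofPush_add]

theorem an_zero {M : X.Modules} {U : X.Opens} : an (0 : Γ(M, U)) = 0 := by
  unfold an
  rw [map_zero]; rfl

theorem an_smul {M : X.Modules} {U : X.Opens} (r : Γ(X, U)) (m : Γ(M, U)) : an (r • m) = toHol U r • an m := by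
  unfold an
  rw [Scheme.Modules.Hom.app_smul, ofPush_smul]

theorem an_res {M : X.Modules} {U V : X.Opens} (h : V ≤ U) (m : Γ(M, U)) :
    an (M.presheaf.map (homOfLE h).op m) = res _ (pre_mono h) (an m) := by
  unfold an
  rw [← ofPush_res h]
  exact congrArg ofPush congr($(((An.analytifyAdj X).unit.app M).mapPresheaf.naturality (homOfLE h).op) m)

theorem app_map_an {M N : X.Modules} (f : M ⟶ N) {U : X.Opens} (m : Γ(M, U)) :
    app ((An.analytify X).map f) (pre U) (an m) = an (f.app U m) := by
  have h := (An.analytifyAdj X).unit.naturality f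
  exact congrArg (fun g : M ⟶ (An.anPush X).obj ((An.analytify X).obj N) => ofPush (g.app U m)) h.symm

/-- The morphism `M^an ⟶ P` attached to `f : M ⟶ anPush P`. -/
def adj {M : X.Modules} {P : An.AnMod X} (f : M ⟶ (An.anPush X).obj P) : (An.analytify X).obj M ⟶ P :=
  ((An.analytifyAdj X).homEquiv M P).symm f

theorem app_adj_an {M : X.Modules} {P : An.AnMod X} (f : M ⟶ (An.anPush X).obj P) {U : X.Opens} (m : Γ(M, U)) :
    app (adj f) (pre U) (an m) = ofPush (f.app U m) := by
  have h : (An.analytifyAdj X).unit.app M ≫ (An.anPush X).map (adj f) = f :=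
    ((An.analytifyAdj X).homEquiv_unit (f := adj f)).symm.trans (((An.analytifyAdj X).homEquiv M P).apply_symm_apply f)
  exact congrArg (fun g : M ⟶ (An.anPush X).obj P => ofPush (g.app U m)) h

theorem hom_ext_an {M : X.Modules} {P : An.AnMod X} {f g : (An.analytify X).obj M ⟶ P}
    (h : ∀ (U : X.Opens) (m : Γ(M, U)), app f (pre U) (an m) = app g (pre U) (an m)) : f = g := by
  apply ((An.analytifyAdj X).homEquiv M P).injective
  refine ((An.analytifyAdj X).homEquiv_unit (f := f)).trans (Eq.trans ?_ ((An.analytifyAdj X).homEquiv_unit (f := g)).symm)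
  apply Scheme.Modules.hom_ext
  intro U
  ext m
  exact h U m

end Groth.Agent.Gaga.H975.AnSec
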