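import Groth.Agent.Gaga.H975.AnSec

/-!
# The comparison map in degree zero is the unit on global sections
-/

set_option autoImplicit false

open CategoryTheory CategoryTheory.Limits TopologicalSpace Opposite AlgebraicGeometry CategoryTheory.Abelian

noncomputable section

namespace Groth.Agent.Gaga.H975.BridgeH0

open Groth.Agent.Gaga.H975.ModSec Groth.Agent.Gaga.H975.AnSec
open An

section General

variable {C D : Type*} [Category* C] [Category* D]

theorem homEquiv_leftAdjointUniq_comp {F F' : C ⥤ D} {G : D ⥤ C} (adj1 : F ⊣ G) (adj2 : F' ⊣ G) (x : C) (y : D)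
    (g : F'.obj x ⟶ y) :
    adj1.homEquiv x y ((Adjunction.leftAdjointUniq adj1 adj2).hom.app x ≫ g) = adj2.homEquiv x y g := by
  rw [Adjunction.homEquiv_naturality_right, Adjunction.homEquiv_leftAdjointUniq_hom_app, Adjunction.homEquiv_unit]

end General

variable {X : Scheme.{0}} [X.Over An.SC]

/-- Adjoint of a composite `inv ≫ pull f ≫ pullAbToAn`. -/
theorem homEquiv_gaga (M : X.Modules) (A : AddCommGrpCat.{0})
    (f : (constantSheaf (Opens.grothendieckTopology (X : TopCat.{0})) AddCommGrpCat.{0}).obj A ⟶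
      (SheafOfModules.toSheaf X.ringCatSheaf).obj M) :
    (constAdjTop (top X)).homEquiv _ _
      ((pullConstIsoTop X).inv.app A ≫ (pullAb X).map f ≫ pullAbToAn M) =
    (constAdjTop (X : TopCat.{0})).homEquiv _ _ f ≫ (gsecTop (X : TopCat.{0})).map (toPushAnAb M) := by
  have h1 : (pullAb X).map f ≫ pullAbToAn M = ((pullPushAdjAb X).homEquiv _ _).symm (f ≫ toPushAnAb M) := by
    rw [Adjunction.homEquiv_naturality_left_symm]
    rfl
  rw [h1]
  have h2 := homEquiv_leftAdjointUniq_comp (constAdjTop (top X))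
    (((constAdjTop (X : TopCat.{0})).comp (pullPushAdjAb X)).ofNatIsoRight (pushGsecIsoTop X)) A _
    (((pullPushAdjAb X).homEquiv _ _).symm (f ≫ toPushAnAb M))
  refine Eq.trans h2 ?_
  rw [Adjunction.homEquiv_ofNatIsoRight_apply, Adjunction.comp_homEquiv]
  refine (Category.comp_id _).trans ?_
  refine (congrArg ((constAdjTop (X : TopCat.{0})).homEquiv _ _) (Equiv.apply_symm_apply _ _)).trans ?_
  exact (constAdjTop (X : TopCat.{0})).homEquiv_naturality_right _ _

/-- In degree zero, `gagaH` is the unit on global sections. -/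
theorem gagaH_zero (M : X.Modules) (e : Sheaf.H ((SheafOfModules.toSheaf X.ringCatSheaf).obj M) 0) :
    Sheaf.H.equiv₀ (AnMod.toAb ((analytify X).obj M)) (opensTopIsTerminal (top X)) (gagaH X M 0 e) =
      an (U := ⊤) (M := M) (Sheaf.H.equiv₀ ((SheafOfModules.toSheaf X.ringCatSheaf).obj M) (opensTopIsTerminal (X : TopCat.{0})) e) := by
  obtain ⟨f, rfl⟩ := Ext.addEquiv₀.symm.surjective e
  have h1 : gagaH X M 0 (Ext.addEquiv₀.symm f) = Ext.addEquiv₀.symm
      ((pullConstIsoTop X).inv.app (AddCommGrpCat.of (ULift ℤ)) ≫ (pullAb X).map f ≫ pullAbToAn M) := by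
    change ((Ext.mk₀ _).comp ((Ext.mk₀ f).mapExactFunctor (pullAb X)) (zero_add 0)).comp (Ext.mk₀ (pullAbToAn M)) (add_zero 0) =
      Ext.mk₀ _
    rw [Ext.mapExactFunctor_mk₀, Ext.mk₀_comp_mk₀, Ext.mk₀_comp_mk₀, Category.assoc]
    rfl
  rw [h1]
  unfold Sheaf.H.equiv₀
  rw [AddEquiv.trans_apply, AddEquiv.trans_apply, AddEquiv.apply_symm_apply, AddEquiv.trans_apply,
    AddEquiv.trans_apply, AddEquiv.apply_symm_apply]
  change AddCommGrpCat.uliftZMultiplesAddEquiv _ ((constAdjTop (top X)).homEquiv _ _ _) = _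
  rw [homEquiv_gaga]
  rfl

/-- The comparison map in degree zero is bijective iff the unit is bijective on global sections. -/
theorem bijective_gagaH_zero_iff (M : X.Modules) : Function.Bijective (gagaH X M 0) ↔
    Function.Bijective (an : Γ(M, ⊤) → Sec ((analytify X).obj M) (pre ⊤)) := by
  have h : (an : Γ(M, ⊤) → Sec ((analytify X).obj M) (pre ⊤)) ∘
      (Sheaf.H.equiv₀ ((SheafOfModules.toSheaf X.ringCatSheaf).obj M) (opensTopIsTerminal (X : TopCat.{0}))) =
      (Sheaf.H.equiv₀ (AnMod.toAb ((analytify X).obj M)) (opensTopIsTerminal (top X))) ∘ gagaH X M 0 :=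
    funext fun e => (gagaH_zero M e).symm
  rw [← Function.Bijective.of_comp_iff (f := (an : Γ(M, ⊤) → Sec ((analytify X).obj M) (pre ⊤)))
    (g := (Sheaf.H.equiv₀ ((SheafOfModules.toSheaf X.ringCatSheaf).obj M) (opensTopIsTerminal (X : TopCat.{0}))))
    (AddEquiv.bijective _), h]
  exact (Function.Bijective.of_comp_iff' (AddEquiv.bijective _) _).symm

end Groth.Agent.Gaga.H975.BridgeH0
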