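import Groth.Agent.Gaga.H975.StalkSec
import Groth.Agent.Gaga.H277.AnUnit

/-!
# Base change to the point and global sections

If `anBaseChange (X ⟶ Spec ℂ) M` is an isomorphism and the direct image of `M` is quasi-coherent, then
`Γ(X, M) → Γ(X(ℂ), M^an)` is bijective.
-/

set_option autoImplicit false
set_option linter.style.haveILetI false

open CategoryTheory TopologicalSpace Opposite AlgebraicGeometry
open scoped TensorProduct

noncomputable section

namespace Groth.Agent.Gaga.H975.BridgePt

open Groth.Agent.Gaga.H975.ModSec Groth.Agent.Gaga.H975.AnSec Groth.Agent.Gaga.H975.StalkSec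
open Groth.Agent.Gaga.H974.AnStalk Groth.Agent.Gaga.H974.Analytify

section Alg

/-- A base change along a bijective ring homomorphism is bijective. -/
theorem bijective_of_isBaseChange {R B M N : Type*} [CommRing R] [CommRing B] [Algebra R B] [AddCommGroup M] [Module R M]
    [AddCommGroup N] [Module R N] [Module B N] [IsScalarTower R B N] (f : M →ₗ[R] N) (h : IsBaseChange B f)
    (hb : Function.Bijective (algebraMap R B)) : Function.Bijective f := by
  let e : R ≃ₗ[R] B := LinearEquiv.ofBijective (Algebra.linearMap R B) hb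
  have h1 : ∀ m : M, f m = h.equiv ((TensorProduct.congr e (LinearEquiv.refl R M)) ((TensorProduct.lid R M).symm m)) := by
    intro m
    rw [TensorProduct.lid_symm_apply, TensorProduct.congr_tmul, IsBaseChange.equiv_tmul]
    change _ = algebraMap R B 1 • f m
    rw [map_one, one_smul]
  have h2 : (f : M → N) = h.equiv ∘ (TensorProduct.congr e (LinearEquiv.refl R M)) ∘ (TensorProduct.lid R M).symm :=
    funext h1
  rw [h2]
  exact h.equiv.bijective.comp ((LinearEquiv.bijective _).comp (LinearEquiv.bijective _))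

end Alg

/-- `Spec ℂ` over itself. -/
abbrev overSelf : An.SC.Over An.SC := ⟨𝟙 _⟩

section Point

attribute [local instance] overSelf

/-- The complex point of `Spec ℂ`. -/
def pnt : An.Pts An.SC := ⟨𝟙 _, Category.comp_id _⟩

theorem eq_pnt (x : An.Pts An.SC) : x = pnt := Subtype.ext ((Category.comp_id x.1).symm.trans x.2)

theorem eq_top_of_mem (V : Opens (An.top An.SC)) (hV : (show An.top An.SC from pnt) ∈ V) : V = ⊤ := by
  ext x
  refine ⟨fun _ => trivial, fun _ => ?_⟩
  have : x = (show An.top An.SC from pnt) := eq_pnt x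
  rw [this]
  exact hV

theorem gm_bijective (N : An.AnMod An.SC) (h : (show An.top An.SC from pnt) ∈ (⊤ : Opens (An.top An.SC))) :
    Function.Bijective (gm N (V := ⊤) pnt h) := by
  constructor
  · intro s t hst
    obtain ⟨W, hW, hW', h1⟩ := exists_res_eq_of_gm_eq N pnt h s t hst
    obtain rfl := eq_top_of_mem W hW
    rwa [res_self, res_self] at h1
  · intro b
    obtain ⟨V, hx, a, rfl⟩ := exists_gm_eq N pnt b
    obtain rfl := eq_top_of_mem V hx
    exact ⟨a, rfl⟩

theorem gmO_surjective (h : (show An.top An.SC from pnt) ∈ (⊤ : Opens (An.top An.SC))) :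
    Function.Surjective (gmO (V := (⊤ : Opens (An.top An.SC))) pnt h) := by
  intro b
  obtain ⟨V, hx, a, rfl⟩ := exists_gmO_eq pnt b
  obtain rfl := eq_top_of_mem V hx
  exact ⟨a, rfl⟩

theorem toHol_surjective : Function.Surjective (toHol (X := An.SC) ⊤) := by
  intro g
  let g' : (show Type from (An.holPresheaf An.SC).obj (op (pre (⊤ : An.SC.Opens)))) := g
  let c : ℂ := g'.1 ⟨pnt, trivial⟩
  refine ⟨(Scheme.ΓSpecIso (CommRingCat.of ℂ)).inv c, ?_⟩
  apply Subtype.ext
  funext x
  obtain ⟨x, hx⟩ := x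
  obtain rfl := eq_pnt x
  change An.Pts.ev pnt ⊤ trivial _ = c
  change (Scheme.ΓSpecIso (CommRingCat.of ℂ)).hom ((𝟙 An.SC : An.SC ⟶ An.SC).appLE ⊤ ⊤ le_rfl ((Scheme.ΓSpecIso (CommRingCat.of ℂ)).inv c)) = c
  rw [Scheme.Hom.appLE, ← CommRingCat.comp_apply, ← CommRingCat.comp_apply]
  simp

theorem rB_bijective (h : (pnt : An.Pts An.SC).pt ∈ (⊤ : An.SC.Opens)) : Function.Bijective (rB pnt h) := by
  constructor
  · have hn : Nontrivial (B pnt) := (evStalk pnt).hom.domain_nontrivial
    let φ : ℂ →+* B pnt := (rB pnt h).comp (Scheme.ΓSpecIso (CommRingCat.of ℂ)).inv.hom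
    have hφ : Function.Injective φ := φ.injective
    intro a b hab
    have h1 : ∀ a : Γ(An.SC, ⊤), (Scheme.ΓSpecIso (CommRingCat.of ℂ)).inv ((Scheme.ΓSpecIso (CommRingCat.of ℂ)).hom a) = a := by
      intro a
      rw [← CommRingCat.comp_apply, Iso.hom_inv_id]; rfl
    have h2 : φ ((Scheme.ΓSpecIso (CommRingCat.of ℂ)).hom a) = φ ((Scheme.ΓSpecIso (CommRingCat.of ℂ)).hom b) := by
      change rB pnt h ((Scheme.ΓSpecIso (CommRingCat.of ℂ)).inv _) = rB pnt h ((Scheme.ΓSpecIso (CommRingCat.of ℂ)).inv _)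
      rw [h1, h1, hab]
    rw [← h1 a, ← h1 b, hφ h2]
  · intro b
    obtain ⟨a, rfl⟩ := gmO_surjective (by trivial) b
    obtain ⟨r, rfl⟩ := toHol_surjective a
    exact ⟨r, rB_eq _ _ _⟩

/-- On `Spec ℂ`, quasi-coherent modules and their analytifications have the same global sections. -/
theorem an_bijective (N : An.SC.Modules) (hN : Coh.IsQCoh N) :
    Function.Bijective (an : Γ(N, ⊤) → Sec ((An.analytify An.SC).obj N) (pre ⊤)) := by
  have h : (pnt : An.Pts An.SC).pt ∈ (⊤ : An.SC.Opens) := trivial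
  letI := algB pnt h
  letI := modB pnt h ((An.analytify An.SC).obj N)
  haveI := towerB pnt h ((An.analytify An.SC).obj N)
  have h1 : Function.Bijective (kapL pnt h N) :=
    bijective_of_isBaseChange _ (isBaseChange_kapL pnt h N hN (isAffineOpen_top An.SC)) (rB_bijective h)
  have h2 : (kapL pnt h N : Γ(N, ⊤) → _) = gm _ (V := pre ⊤) pnt (by trivial) ∘ (an : Γ(N, ⊤) → _) :=
    funext fun m => kap_eq pnt h N m
  rw [h2] at h1
  exact (Function.Bijective.of_comp_iff' (gm_bijective _ _) _).1 h1

end Point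

variable {X : Scheme.{0}} [X.Over An.SC]

attribute [local instance] overSelf

omit [X.Over An.SC] in
theorem isOver_str (X : Scheme.{0}) [X.Over An.SC] : (X ↘ An.SC).IsOver An.SC := ⟨Category.comp_id _⟩

attribute [local instance] isOver_str

/-- If the base change map to the point is an isomorphism then global sections agree. -/
theorem an_bijective_of_isIso (M : X.Modules) (hM : Coh.IsQCoh ((An.pushMod (X ↘ An.SC)).obj M))
    [IsIso (An.anBaseChange (X ↘ An.SC) M)] :
    Function.Bijective (an : Γ(M, ⊤) → Sec ((An.analytify X).obj M) (pre ⊤)) := by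
  have h1 := an_bijective _ hM
  have h2 : Function.Bijective (app (An.anBaseChange (X ↘ An.SC) M) (pre ⊤)) := by
    have h3 := asIso (An.anBaseChange (X ↘ An.SC) M)
    refine ⟨fun a b hab => ?_, fun b => ⟨app (inv (An.anBaseChange (X ↘ An.SC) M)) (pre ⊤) b, ?_⟩⟩
    · have h4 := congrArg (app (inv (An.anBaseChange (X ↘ An.SC) M)) (pre ⊤)) hab
      rw [← app_comp, ← app_comp, IsIso.hom_inv_id, app_id, app_id] at h4
      exact h4
    · rw [← app_comp, IsIso.inv_hom_id, app_id]
  have h5 : (an : Γ(M, ⊤) → Sec ((An.analytify X).obj M) (pre ⊤)) =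
      app (An.anBaseChange (X ↘ An.SC) M) (pre ⊤) ∘ (an : Γ((An.pushMod (X ↘ An.SC)).obj M, ⊤) → _) :=
    funext fun m => (H277.AnUnit.anBaseChange_an (X ↘ An.SC) M ⊤ m).symm
  rw [h5]
  exact h2.comp h1

end Groth.Agent.Gaga.H975.BridgePt
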