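import Groth.Agent.Gaga.H975.Gen

/-!
# The comparison map `Hom(M, N)^an → Hom(M^an, N^an)`

`localAdj t`: for `t` a homomorphism `M|_U → (anPush P)|_U`, the corresponding homomorphism `M^an → P` over `U(ℂ)`.
`comparison M N : (homSheaf M N)^an ⟶ homMod M^an N^an`.
-/

set_option autoImplicit false

open CategoryTheory TopologicalSpace Opposite AlgebraicGeometry

noncomputable section

namespace Groth.Agent.Gaga.H975.Comp

open Groth.Agent.Gaga.H975.ModSec Groth.Agent.Gaga.H975.HomMod Groth.Agent.Gaga.H975.Cut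
open Groth.Agent.Gaga.H975.AnSec Groth.Agent.Gaga.H975.Gen
open Groth.Agent.CohqB.HomSheaf (homMkSec homMkSec_app homSheaf comp topEquiv)

variable {X : Scheme.{0}} [X.Over An.SC] {M N : X.Modules} {P : An.AnMod X}

/-- The morphism `M ⟶ anPush (cut P U(ℂ))` attached to a homomorphism over `U`. -/
def toPushCut {U : X.Opens} (t : CohqB.HomSheaf.HomOn M ((An.anPush X).obj P) U) :
    M ⟶ (An.anPush X).obj (cut P (pre U)) :=
  homMkSec _ _ (fun W =>
    { toFun := fun m => toPush (P := cut P (pre U)) (toCut (P := P) (V := pre U) (W := pre W)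
        (ofPush (t.ap (W ⊓ U) inf_le_right (M.presheaf.map (homOfLE inf_le_left).op m))))
      map_zero' := by
        rw [map_zero]
        exact congrArg (fun s => toPush (P := cut P (pre U)) (toCut (P := P) (V := pre U) (W := pre W) (ofPush s)))
          (map_zero (t.1 ⟨W ⊓ U, inf_le_right⟩))
      map_add' := fun m m' => by
        rw [map_add, CohqB.HomSheaf.HomOn.ap_add_right]
        rfl })
    (fun W r m => by
      change toPush (P := cut P (pre U)) (toCut (P := P) (V := pre U) (W := pre W) (ofPush (t.ap (W ⊓ U) inf_le_right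
        (M.presheaf.map (homOfLE inf_le_left).op (r • m))))) = _
      rw [Scheme.Modules.map_smul, CohqB.HomSheaf.HomOn.ap_smul_right]
      have h1 := ofPush_smul (P := P) (X.presheaf.map (homOfLE (inf_le_left : W ⊓ U ≤ W)).op r)
        (t.ap (W ⊓ U) inf_le_right (M.presheaf.map (homOfLE inf_le_left).op m))
      rw [toHol_res] at h1
      exact h1)
    (fun W W' h m => by
      change ofPush (t.ap (W' ⊓ U) inf_le_right (M.presheaf.map (homOfLE inf_le_left).op
        (M.presheaf.map (homOfLE h).op m))) = res P (inf_le_inf_right (pre U) (pre_mono h))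
          (ofPush (t.ap (W ⊓ U) inf_le_right (M.presheaf.map (homOfLE inf_le_left).op m)))
      have h1 := t.ap_map (V := W ⊓ U) (W := W' ⊓ U) inf_le_right (inf_le_inf_right U h)
        (M.presheaf.map (homOfLE inf_le_left).op m)
      rw [CohqB.HomSheaf.res_res] at h1 ⊢
      rw [h1]
      exact ofPush_res _ _)

/-- The homomorphism `M^an → P` over `U(ℂ)` attached to a homomorphism `M → anPush P` over `U`. -/
def localAdj {U : X.Opens} (t : CohqB.HomSheaf.HomOn M ((An.anPush X).obj P) U) :
    HomMod.HomOn ((An.analytify X).obj M) P (pre U) :=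
  homOnOfCut (adj (toPushCut t))

theorem localAdj_an {U : X.Opens} (t : CohqB.HomSheaf.HomOn M ((An.anPush X).obj P) U) (U' : X.Opens) (h : U' ≤ U)
    (m : Γ(M, U')) : (localAdj t).ap (pre U') (pre_mono h) (an m) = ofPush (t.ap U' h m) := by
  unfold localAdj
  rw [ap_homOnOfCut, app_adj_an]
  change res P _ (ofPush (t.ap (U' ⊓ U) inf_le_right (M.presheaf.map (homOfLE inf_le_left).op m))) = _
  have h1 := t.ap_map (V := U') (W := U' ⊓ U) h inf_le_left m
  rw [h1]
  refine (congrArg (res P _) (ofPush_res (P := P) (inf_le_left : U' ⊓ U ≤ U') _)).trans ?_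
  rw [res_res, res_self]

/-- Postcomposition of a local homomorphism with the unit. -/
def postUnit {U : X.Opens} (t : CohqB.HomSheaf.HomOn M N U) :
    CohqB.HomSheaf.HomOn M ((An.anPush X).obj ((An.analytify X).obj N)) U :=
  CohqB.HomSheaf.HomOn.mk' (fun V hV m => toPush (an (t.ap V hV m)))
    (fun V hV m m' => by rw [CohqB.HomSheaf.HomOn.ap_add_right, an_add]; rfl)
    (fun V hV r m => by rw [CohqB.HomSheaf.HomOn.ap_smul_right, an_smul]; rfl)
    (fun V W hV h m => by rw [CohqB.HomSheaf.HomOn.ap_map, an_res]; rfl)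

/-- The analytification of a local homomorphism. -/
def anHom {U : X.Opens} (t : CohqB.HomSheaf.HomOn M N U) :
    HomMod.HomOn ((An.analytify X).obj M) ((An.analytify X).obj N) (pre U) :=
  localAdj (postUnit t)

theorem anHom_an {U : X.Opens} (t : CohqB.HomSheaf.HomOn M N U) (U' : X.Opens) (h : U' ≤ U)
    (m : Γ(M, U')) : (anHom t).ap (pre U') (pre_mono h) (an m) = an (t.ap U' h m) :=
  localAdj_an (postUnit t) U' h m

theorem anHom_add {U : X.Opens} (t t' : CohqB.HomSheaf.HomOn M N U) : anHom (t + t') = anHom t + anHom t' :=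
  homOn_ext_pre fun U' hU' m => by
    rw [HomMod.HomOn.ap_add, anHom_an _ U' hU', anHom_an _ U' hU', anHom_an _ U' hU', CohqB.HomSheaf.HomOn.ap_add, an_add]

theorem anHom_zero {U : X.Opens} : anHom (0 : CohqB.HomSheaf.HomOn M N U) = 0 :=
  homOn_ext_pre fun U' hU' m => by
    rw [HomMod.HomOn.ap_zero, anHom_an _ U' hU', CohqB.HomSheaf.HomOn.ap_zero, an_zero]

theorem anHom_smul {U : X.Opens} (r : Γ(X, U)) (t : CohqB.HomSheaf.HomOn M N U) :
    anHom (r • t) = toHol U r • anHom t :=
  homOn_ext_pre fun U' hU' m => by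
    rw [HomMod.HomOn.ap_smul, anHom_an _ U' hU', anHom_an _ U' hU', CohqB.HomSheaf.HomOn.ap_smul, an_smul, toHol_res]

theorem anHom_res {U V : X.Opens} (h : V ≤ U) (t : CohqB.HomSheaf.HomOn M N U) :
    anHom (CohqB.HomSheaf.HomOn.res h t) = HomMod.HomOn.rst (pre_mono h) (anHom t) :=
  homOn_ext_pre fun U' hU' m => by
    rw [HomMod.HomOn.ap_rst, anHom_an _ U' hU']
    exact (anHom_an t U' (hU'.trans h) m).symm

variable (M N) in
/-- The map `Hom(M, N) → anPush Hom(M^an, N^an)`. -/
def cFlat : homSheaf M N ⟶ (An.anPush X).obj (homMod ((An.analytify X).obj M) ((An.analytify X).obj N)) :=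
  homMkSec _ _ (fun U =>
    { toFun := fun t => toPush (P := homMod ((An.analytify X).obj M) ((An.analytify X).obj N)) (ofHomOn (anHom t))
      map_zero' := anHom_zero (U := U)
      map_add' := fun t t' => anHom_add t t' })
    (fun _ r t => anHom_smul r t)
    (fun _ _ h t => anHom_res h t)

variable (M N) in
/-- The comparison map `Hom(M, N)^an → Hom(M^an, N^an)`. -/
def comparison : (An.analytify X).obj (homSheaf M N) ⟶
    homMod ((An.analytify X).obj M) ((An.analytify X).obj N) :=
  adj (cFlat M N)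

theorem comparison_an {U : X.Opens} (t : Γ(homSheaf M N, U)) :
    toHomOn (app (comparison M N) (pre U) (an t)) = anHom t := by
  unfold comparison
  rw [app_adj_an]
  rfl

/-- The analytification of a global homomorphism. -/
theorem anHom_top (f : M ⟶ N) : anHom (CohqB.HomSheaf.ofHom f ⊤) = ofHom ((An.analytify X).map f) (pre ⊤) :=
  homOn_ext_pre fun U' hU' m => by
    rw [anHom_an _ U' hU', ap_ofHom, app_map_an]
    rfl

/-- The whole space of complex points. -/
theorem pre_top : pre (⊤ : X.Opens) = ⊤ := rfl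

/-- Full faithfulness from the bijectivity of the comparison on global sections. -/
theorem map_bijective_of (h1 : Function.Bijective (an : Γ(homSheaf M N, ⊤) → Sec ((An.analytify X).obj (homSheaf M N)) (pre ⊤)))
    (h2 : Function.Bijective (app (comparison M N) (pre ⊤))) :
    Function.Bijective ((An.analytify X).map : (M ⟶ N) → ((An.analytify X).obj M ⟶ (An.analytify X).obj N)) := by
  have h3 : (fun s => HomMod.toHom (toHomOn (U := pre ⊤) (app (comparison M N) (pre ⊤) (an (CohqB.HomSheaf.ofHom s ⊤))))) =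
      ((An.analytify X).map : (M ⟶ N) → ((An.analytify X).obj M ⟶ (An.analytify X).obj N)) := by
    funext f
    rw [comparison_an, anHom_top]
    exact toHom_ofHom _
  rw [← h3]
  have h4 : Function.Bijective (fun f : M ⟶ N => (CohqB.HomSheaf.ofHom f ⊤ : Γ(homSheaf M N, ⊤))) :=
    (topEquiv M N).symm.bijective
  have h5 : Function.Bijective (fun s : HomMod.HomOn ((An.analytify X).obj M) ((An.analytify X).obj N) ⊤ => HomMod.toHom s) :=
    ⟨fun s t hst => by rw [← ofHom_toHom s, ← ofHom_toHom t]; exact congrArg (fun f => ofHom f ⊤) hst,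
      fun f => ⟨ofHom f ⊤, toHom_ofHom f⟩⟩
  exact h5.comp ((h2.comp h1).comp h4)

end Groth.Agent.Gaga.H975.Comp
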