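import Groth.Agent.Gaga.H975.CompIso

/-!
# The comparison map `Hom(M, N)^an → Hom(M^an, N^an)` is bijective for `M` coherent (end)
-/

set_option autoImplicit false
set_option linter.style.haveILetI false

open CategoryTheory TopologicalSpace Opposite AlgebraicGeometry
open scoped TensorProduct

noncomputable section

namespace Groth.Agent.Gaga.H975.CompBij

open Groth.Agent.Gaga.H975.ModSec Groth.Agent.Gaga.H975.HomMod
open Groth.Agent.Gaga.H975.AnSec Groth.Agent.Gaga.H975.Gen Groth.Agent.Gaga.H975.Comp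
open Groth.Agent.Gaga.H975.StalkSec Groth.Agent.Gaga.H975.CompIso
open Groth.Agent.Gaga.H974.AnStalk Groth.Agent.Gaga.H974.Analytify
open Groth.Agent.CohqB.HomSheaf (homSheaf comp affineEquiv)

variable {X : Scheme.{0}} [X.Over An.SC] {M N : X.Modules}

section Stalk

variable (x : An.Pts X) {U : X.Opens} (hx : x.pt ∈ U)

/-- `φ ↦ (m ↦ germ of φ(m)^an)` as a linear map on sections of the internal Hom. -/
def homKap (hM : Coh.IsQCoh M) (hU : IsAffineOpen U) :
    letI := modB x hx ((An.analytify X).obj N)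
    Γ(homSheaf M N, U) →ₗ[Γ(X, U)] (Γ(M, U) →ₗ[Γ(X, U)] anStk ((An.analytify X).obj N) x) :=
  letI := modB x hx ((An.analytify X).obj N)
  (LinearMap.compRight Γ(X, U) (kapL x hx N) (M := Γ(M, U))).comp (affineEquiv (N := N) hM hU).toLinearMap

theorem isBaseChange_homKap (hM : Coh.IsQCoh M) (hN : Coh.IsQCoh N) (hU : IsAffineOpen U)
    (hfp : Module.FinitePresentation Γ(X, U) Γ(M, U)) (hflat : (anStalkMap x).hom.Flat) :
    letI := algB x hx
    letI := modB x hx ((An.analytify X).obj N)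
    haveI := towerB x hx ((An.analytify X).obj N)
    IsBaseChange (B x) (homKap (M := M) (N := N) x hx hM hU) := by
  letI := algB x hx
  letI := modB x hx ((An.analytify X).obj N)
  haveI := towerB x hx ((An.analytify X).obj N)
  haveI := flat_rB x hx hU hflat
  haveI := hfp
  exact IsBaseChange.comp_equiv _ _
    (HomBC.isBaseChange_hom (M := Γ(M, U)) (kapL x hx N) (isBaseChange_kapL x hx N hN hU))

theorem tensor_eq_sum {R B F : Type*} [CommRing R] [CommRing B] [Algebra R B] [AddCommGroup F] [Module R F]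
    (z : B ⊗[R] F) : ∃ (n : ℕ) (b : Fin n → B) (φ : Fin n → F), z = ∑ i, b i ⊗ₜ φ i := by
  induction z using TensorProduct.induction_on with
  | zero => exact ⟨0, Fin.elim0, Fin.elim0, by simp⟩
  | tmul b f => exact ⟨1, fun _ => b, fun _ => f, by simp⟩
  | add z w hz hw =>
    obtain ⟨n, b, φ, rfl⟩ := hz
    obtain ⟨m, b', φ', rfl⟩ := hw
    exact ⟨n + m, Fin.append b b', Fin.append φ φ', by simp [Fin.sum_univ_add]⟩

theorem sum_kap_eq_zero (hM : Coh.IsQCoh M) (hN : Coh.IsQCoh N) (hF : Coh.IsQCoh (homSheaf M N)) (hU : IsAffineOpen U)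
    (hfp : Module.FinitePresentation Γ(X, U) Γ(M, U)) (hflat : (anStalkMap x).hom.Flat) {n : ℕ}
    (b : Fin n → B x) (φ : Fin n → Γ(homSheaf M N, U))
    (h : ∀ m : Γ(M, U), ∑ i, b i • kap x hx N (comp (φ i) U le_rfl m) = 0) :
    ∑ i, b i • kap x hx (homSheaf M N) (φ i) = 0 := by
  letI i1 := algB x hx
  letI i2 := modB x hx ((An.analytify X).obj N)
  haveI i3 := towerB x hx ((An.analytify X).obj N)
  letI i4 := modB x hx ((An.analytify X).obj (homSheaf M N))
  haveI i5 := towerB x hx ((An.analytify X).obj (homSheaf M N))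
  have h1 := isBaseChange_homKap (M := M) (N := N) x hx hM hN hU hfp hflat
  have h2 := isBaseChange_kapL x hx (homSheaf M N) hF hU
  let z : B x ⊗[Γ(X, U)] Γ(homSheaf M N, U) := ∑ i, b i ⊗ₜ φ i
  have h3 : h1.equiv z = 0 := by
    rw [map_sum]
    ext m
    rw [LinearMap.sum_apply]
    exact h m
  have h4 : z = 0 := (LinearEquiv.map_eq_zero_iff _).1 h3
  have h5 : h2.equiv z = ∑ i, b i • kap x hx (homSheaf M N) (φ i) := by
    rw [map_sum]
    rfl
  rw [← h5, h4, map_zero]

theorem exists_sum_kap (hM : Coh.IsQCoh M) (hN : Coh.IsQCoh N) (hU : IsAffineOpen U)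
    (hfp : Module.FinitePresentation Γ(X, U) Γ(M, U)) (hflat : (anStalkMap x).hom.Flat)
    (τ : Γ(M, U) →+ anStk ((An.analytify X).obj N) x) (hτ : ∀ (r : Γ(X, U)) m, τ (r • m) = rB x hx r • τ m) :
    ∃ (n : ℕ) (b : Fin n → B x) (φ : Fin n → Γ(homSheaf M N, U)),
      ∀ m : Γ(M, U), τ m = ∑ i, b i • kap x hx N (comp (φ i) U le_rfl m) := by
  letI i1 := algB x hx
  letI i2 := modB x hx ((An.analytify X).obj N)
  haveI i3 := towerB x hx ((An.analytify X).obj N)
  have h1 := isBaseChange_homKap (M := M) (N := N) x hx hM hN hU hfp hflat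
  let τ' : Γ(M, U) →ₗ[Γ(X, U)] anStk ((An.analytify X).obj N) x :=
    { toFun := τ, map_add' := map_add τ, map_smul' := hτ }
  obtain ⟨z, hz⟩ := h1.equiv.surjective τ'
  obtain ⟨n, b, φ, rfl⟩ := tensor_eq_sum z
  refine ⟨n, b, φ, fun m => ?_⟩
  have h2 : τ m = h1.equiv (∑ i, b i ⊗ₜ φ i) m := by rw [hz]; rfl
  rw [h2, map_sum, LinearMap.sum_apply]
  rfl

end Stalk

theorem exists_common_nhd {T : TopCat.{0}} {n : ℕ} (x : T) (V : Fin n → Opens T) (hx : ∀ i, x ∈ V i) (V0 : Opens T)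
    (hx0 : x ∈ V0) : ∃ W : Opens T, x ∈ W ∧ W ≤ V0 ∧ ∀ i, W ≤ V i :=
  ⟨V0 ⊓ ⟨⋂ i, (V i : Set T), isOpen_iInter_of_finite fun i => (V i).2⟩, ⟨hx0, Set.mem_iInter.2 hx⟩, inf_le_left,
    fun i => inf_le_right.trans fun _ hy => Set.mem_iInter.1 hy i⟩

theorem exists_common_gmO {n : ℕ} (x : An.Pts X) (b : Fin n → B x) (V0 : Opens (An.top X)) (hx0 : x ∈ V0) :
    ∃ (W : Opens (An.top X)) (hx : x ∈ W) (_ : W ≤ V0) (a : Fin n → O (An.hol X) W), ∀ i, gmO x hx (a i) = b i := by
  choose V hV a ha using fun i => exists_gmO_eq x (b i)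
  obtain ⟨W, hxW, hW0, hW⟩ := exists_common_nhd (T := An.top X) x V hV V0 hx0
  exact ⟨W, hxW, hW0, fun i => resO (hW i) (a i), fun i => by rw [gmO_res, ha]⟩

theorem exists_affine_nhd (x : X) : ∃ U : X.Opens, IsAffineOpen U ∧ x ∈ U := by
  obtain ⟨U, hU, hxU, -⟩ := exists_isAffineOpen_mem_and_subset (x := x) (U := ⊤) trivial
  exact ⟨U, hU, hxU⟩

section Main

variable (hM : Coh.IsQCoh M) (hN : Coh.IsQCoh N) (hF : Coh.IsQCoh (homSheaf M N))
  (hfp : ∀ U : X.Opens, IsAffineOpen U → Module.FinitePresentation Γ(X, U) Γ(M, U))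
  (hflat : ∀ x : An.Pts X, (anStalkMap x).hom.Flat)

include hM hN hF hfp hflat

theorem eq_zero_of_cmp {V : Opens (An.top X)} (s : Sec ((An.analytify X).obj (homSheaf M N)) V) (h : cmp s = 0) :
    s = 0 := by
  apply eq_of_forall_nhds
  intro x hxV
  obtain ⟨U, hU, hx⟩ := exists_affine_nhd (An.Pts.pt x)
  letI i1 := algB x hx
  letI i4 := modB x hx ((An.analytify X).obj (homSheaf M N))
  haveI i5 := towerB x hx ((An.analytify X).obj (homSheaf M N))
  have h2 := isBaseChange_kapL x hx (homSheaf M N) hF hU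
  obtain ⟨z, hz⟩ := h2.equiv.surjective (gm _ x hxV s)
  obtain ⟨n, b, φ, rfl⟩ := tensor_eq_sum z
  have h3 : gm _ x hxV s = ∑ i, b i • kap x hx (homSheaf M N) (φ i) := by
    rw [← hz, map_sum]
    rfl
  obtain ⟨W, hxW, hW, a, ha⟩ := exists_common_gmO x b (V ⊓ pre U) ⟨hxV, hx⟩
  have hWU : W ≤ pre U := hW.trans inf_le_right
  have hWV : W ≤ V := hW.trans inf_le_left
  have h4 : gm _ x hxW (res _ hWV s) = gm _ x hxW (∑ i, a i • res _ hWU (an (φ i))) := by
    rw [gm_res, h3, map_sum]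
    refine Finset.sum_congr rfl fun i _ => ?_
    rw [gm_smul, ha, gm_res, kap_eq]
  obtain ⟨W', hxW', hW', h5⟩ := exists_res_eq_of_gm_eq _ x hxW _ _ h4
  have h6 : ∀ m : Γ(M, U), ∑ i, b i • kap x hx N (comp (φ i) U le_rfl m) = 0 := by
    intro m
    have h7 := cmp_comb hWU Finset.univ a φ m
    have h8 := congrArg (res _ hW') h7
    rw [← HomMod.HomOn.ap_res _ le_rfl hW'] at h8
    have h9 : (cmp (∑ i, a i • res _ hWU (an (φ i)))).ap W' (hW'.trans le_rfl) (res _ hW' (res _ hWU (an m))) =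
        (HomMod.HomOn.rst hW' (cmp (∑ i, a i • res _ hWU (an (φ i))))).ap W' le_rfl (res _ hW' (res _ hWU (an m))) := rfl
    rw [h9, ← cmp_res, ← h5, cmp_res, cmp_res, h] at h8
    have h10 := congrArg (gm _ x hxW') h8
    rw [gm_res, map_sum] at h10
    refine Eq.trans ?_ h10.symm |>.trans (map_zero (gm ((An.analytify X).obj N) x hxW'))
    refine Finset.sum_congr rfl fun i _ => ?_
    rw [gm_smul, ha, gm_res, kap_eq]
  have h11 := sum_kap_eq_zero x hx hM hN hF hU (hfp U hU) (hflat x) b φ h6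
  have h12 : gm _ x hxV s = gm _ x hxV 0 := by rw [h3, h11, map_zero]
  exact exists_res_eq_of_gm_eq _ x hxV _ _ h12

omit hF in
theorem exists_cmp_local {V : Opens (An.top X)}
    (t : HomMod.HomOn ((An.analytify X).obj M) ((An.analytify X).obj N) V) (x : An.Pts X) (hxV : x ∈ V) :
    ∃ (W : Opens (An.top X)) (_ : x ∈ W) (hW : W ≤ V) (s : Sec ((An.analytify X).obj (homSheaf M N)) W),
      cmp s = HomMod.HomOn.rst hW t := by
  obtain ⟨U, hU, hx⟩ := exists_affine_nhd (An.Pts.pt x)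
  let τ : Γ(M, U) →+ anStk ((An.analytify X).obj N) x :=
    { toFun := fun m => gm _ x (V := V ⊓ pre U) ⟨hxV, hx⟩ (t.ap (V ⊓ pre U) inf_le_left (res _ inf_le_right (an m)))
      map_zero' := by rw [an_zero, map_zero, HomMod.HomOn.ap_zero_right, map_zero]
      map_add' := fun m m' => by rw [an_add, map_add, HomMod.HomOn.ap_add_right, map_add] }
  have hτ : ∀ (r : Γ(X, U)) m, τ (r • m) = rB x hx r • τ m := by
    intro r m
    change gm _ x _ (t.ap (V ⊓ pre U) inf_le_left (res _ inf_le_right (an (r • m)))) = _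
    rw [an_smul, res_smul, HomMod.HomOn.ap_smul_right, gm_smul, gmO_res, rB_eq]
    rfl
  obtain ⟨n, b, φ, hφ⟩ := exists_sum_kap x hx hM hN hU (hfp U hU) (hflat x) τ hτ
  obtain ⟨W, hxW, hW, a, ha⟩ := exists_common_gmO x b (V ⊓ pre U) ⟨hxV, hx⟩
  have hWU : W ≤ pre U := hW.trans inf_le_right
  have hWV : W ≤ V := hW.trans inf_le_left
  haveI := hfp U hU
  obtain ⟨k, S, hS⟩ := Module.Finite.exists_fin (R := Γ(X, U)) (M := Γ(M, U))
  let s : Sec ((An.analytify X).obj (homSheaf M N)) W := ∑ i, a i • res _ hWU (an (φ i))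
  have h1 : ∀ m : Γ(M, U), gm _ x hxW ((cmp s).ap W le_rfl (res _ hWU (an m))) =
      gm _ x hxW (t.ap W hWV (res _ hWU (an m))) := by
    intro m
    rw [cmp_comb hWU Finset.univ a φ m, map_sum]
    have h2 : gm _ x hxW (t.ap W hWV (res _ hWU (an m))) = τ m := by
      change _ = gm _ x _ (t.ap (V ⊓ pre U) inf_le_left (res _ inf_le_right (an m)))
      rw [← gm_res _ hW x hxW, ← HomMod.HomOn.ap_res, res_res]
    rw [h2, hφ m]
    refine Finset.sum_congr rfl fun i _ => ?_
    rw [gm_smul, ha, gm_res, kap_eq]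
  choose Wj hxWj hWj hj using fun j => exists_res_eq_of_gm_eq _ x hxW _ _ (h1 (S j))
  obtain ⟨W', hxW', hW', hW'j⟩ := exists_common_nhd (T := An.top X) x Wj hxWj W hxW
  refine ⟨W', hxW', hW'.trans hWV, res _ hW' s, ?_⟩
  refine homOn_ext_gen M hM hU (Set.range S) hS (hW'.trans hWU) ?_
  rintro _ ⟨j, rfl⟩
  rw [cmp_res, HomMod.HomOn.ap_rst, HomMod.HomOn.ap_rst]
  have h3 := congrArg (res _ (hW'j j)) (hj j)
  rw [res_res, res_res, ← HomMod.HomOn.ap_res, ← HomMod.HomOn.ap_res, res_res] at h3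
  exact h3

theorem bijective_comparison (V : Opens (An.top X)) : Function.Bijective (app (comparison M N) V) := by
  constructor
  · intro s s' hs
    have h1 : cmp (s - s') = 0 := by
      change toHomOn (app (comparison M N) V (s - s')) = 0
      rw [map_sub, hs, sub_self]; rfl
    exact sub_eq_zero.1 (eq_zero_of_cmp hM hN hF hfp hflat _ h1)
  · intro t
    choose W hxW hW s hs using fun x : V => exists_cmp_local hM hN hfp hflat (toHomOn t) x.1 x.2
    have hinj : ∀ {V' : Opens (An.top X)} {s s' : Sec ((An.analytify X).obj (homSheaf M N)) V'}, cmp s = cmp s' → s = s' := by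
      intro V' s s' h
      have h1 : cmp (s - s') = 0 := by
        change toHomOn (app (comparison M N) V' (s - s')) = 0
        rw [map_sub]
        exact sub_eq_zero.2 h
      exact sub_eq_zero.1 (eq_zero_of_cmp hM hN hF hfp hflat _ h1)
    obtain ⟨s0, hs0⟩ := exists_glue ((An.analytify X).obj (homSheaf M N)) W V
      (fun x hx => Opens.mem_iSup.2 ⟨⟨x, hx⟩, hxW ⟨x, hx⟩⟩) hW s (by
        intro x y V' hx hy
        apply hinj
        rw [cmp_res, cmp_res, hs, hs]
        rfl)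
    refine ⟨s0, ?_⟩
    have h2 : cmp s0 = toHomOn t := by
      apply HomMod.HomOn.ext'
      intro V' hV' m
      apply eq_of_forall_nhds
      intro x hx
      have h3 : cmp (res _ (hW ⟨x, hV' hx⟩) s0) = HomMod.HomOn.rst (hW ⟨x, hV' hx⟩) (toHomOn t) := by
        rw [hs0, hs]
      rw [cmp_res] at h3
      refine ⟨V' ⊓ W ⟨x, hV' hx⟩, ⟨hx, hxW _⟩, inf_le_left, ?_⟩
      rw [← HomMod.HomOn.ap_res, ← HomMod.HomOn.ap_res]
      exact congrArg (fun f : HomMod.HomOn _ _ (W ⟨x, hV' hx⟩) => f.ap (V' ⊓ W ⟨x, hV' hx⟩) inf_le_right (res _ inf_le_left m)) h3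
    exact h2

end Main

/-- Full faithfulness of analytification on coherent modules, from flatness and the comparison of global sections
of the internal Hom. -/
theorem map_bijective [IsLocallyNoetherian X] (hM : Coh.IsCoh M) (hN : Coh.IsCoh N)
    (hflat : ∀ x : An.Pts X, (anStalkMap x).hom.Flat)
    (h : Function.Bijective (an : Γ(homSheaf M N, ⊤) → Sec ((An.analytify X).obj (homSheaf M N)) (pre ⊤))) :
    Function.Bijective ((An.analytify X).map : (M ⟶ N) → ((An.analytify X).obj M ⟶ (An.analytify X).obj N)) :=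
  map_bijective_of h (bijective_comparison hM.1 hN.1 (CohqB.HomSheaf.isCoh_homSheaf hM hN).1
    (fun _ hU => CohqB.HomSheaf.finitePresentation_of_isCoh hM hU) hflat _)

end Groth.Agent.Gaga.H975.CompBij
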