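import Mathlib.Algebra.Module.FinitePresentation
import Mathlib.RingTheory.IsTensorProduct
import Mathlib.RingTheory.TensorProduct.IsBaseChangeHom

/-!
# Flat base change of `Hom` out of a finitely presented module
-/

set_option autoImplicit false

open TensorProduct

namespace Groth.Agent.Gaga.H975.HomBC

variable {R B M N N' : Type*} [CommRing R] [CommRing B] [Algebra R B] [AddCommGroup M] [Module R M]
  [AddCommGroup N] [Module R N] [AddCommGroup N'] [Module R N'] [Module B N'] [IsScalarTower R B N']

/-- `B`-linear maps out of `B ⊗ M` into `B ⊗ N = N'` are `R`-linear maps `M → N'`. -/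
noncomputable def homEquiv (κ : N →ₗ[R] N') (hκ : IsBaseChange B κ) :
    ((B ⊗[R] M) →ₗ[B] (B ⊗[R] N)) ≃ₗ[B] (M →ₗ[R] N') :=
  (LinearEquiv.congrRight hκ.equiv).trans
    (LinearEquiv.ofBijective
      ({ toFun := fun f => (f.restrictScalars R).comp (TensorProduct.mk R B M 1)
         map_add' := fun _ _ => rfl
         map_smul' := fun _ _ => rfl } : ((B ⊗[R] M) →ₗ[B] N') →ₗ[B] (M →ₗ[R] N'))
      ⟨fun f g h => TensorProduct.AlgebraTensorModule.curry_injective (by
          ext m
          exact LinearMap.congr_fun h m),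
        fun g => ⟨TensorProduct.AlgebraTensorModule.lift
          ((LinearMap.lsmul B N').flip.restrictScalars R ∘ₗ g).flip, by
            ext m
            simp⟩⟩)

theorem homEquiv_apply (κ : N →ₗ[R] N') (hκ : IsBaseChange B κ) (f : (B ⊗[R] M) →ₗ[B] (B ⊗[R] N)) (m : M) :
    homEquiv κ hκ f m = hκ.equiv (f (1 ⊗ₜ m)) := rfl

theorem isBaseChange_hom [Module.Flat R B] [Module.FinitePresentation R M] (κ : N →ₗ[R] N')
    (hκ : IsBaseChange B κ) : IsBaseChange B (LinearMap.compRight R κ (M := M)) := by
  refine (IsBaseChange.iff_of_equiv_comm (LinearEquiv.refl R (M →ₗ[R] N)) (homEquiv (M := M) κ hκ) ?_).1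
    (Module.FinitePresentation.isBaseChange_map R M N B)
  ext φ m
  simp [homEquiv_apply]

end Groth.Agent.Gaga.H975.HomBC
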