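import Groth.Agent.Gaga.H975.Gen
import Groth.Agent.Gaga.H974.AnStalk
import Groth.Agent.VarietyB.PullSec

/-!
# The stalk of `M^an` as a base change of the sections of `M` over an affine open

For `x : An.Pts X` and an affine open `U` containing the point of `x`, `M` quasi-coherent:
`kap : Γ(M, U) → (M^an)_x`, `m ↦ germ of m^an`, is the base change along `Γ(X, U) → O_{X^an,x}`.
-/

set_option autoImplicit false
set_option linter.style.haveILetI false

open CategoryTheory TopologicalSpace Opposite AlgebraicGeometry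

noncomputable section

namespace Groth.Agent.Gaga.H975.StalkSec

open Groth.Agent.Gaga.H975.ModSec Groth.Agent.Gaga.H975.AnSec
open Groth.Agent.Gaga.H974.AnStalk Groth.Agent.Gaga.H974.Analytify

variable {X : Scheme.{0}} [X.Over An.SC]

/-- The germ of a section of an `O_{X^an}`-module. -/
def gm (N : An.AnMod X) {V : Opens (An.top X)} (x : An.Pts X) (hx : x ∈ V) : Sec N V →+ anStk N x :=
  ((anPsh N).germ V x hx).hom

/-- The local ring of holomorphic germs. -/
abbrev B (x : An.Pts X) : Type := (An.anSpace X).presheaf.stalk x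

/-- The germ of a holomorphic function. -/
def gmO {V : Opens (An.top X)} (x : An.Pts X) (hx : x ∈ V) : O (An.hol X) V →+* B x :=
  ((An.anSpace X).presheaf.germ V x hx).hom

theorem gm_res (N : An.AnMod X) {V W : Opens (An.top X)} (h : W ≤ V) (x : An.Pts X) (hx : x ∈ W) (s : Sec N V) :
    gm N x hx (res N h s) = gm N x (h hx) s :=
  TopCat.Presheaf.germ_res_apply (anPsh N) (homOfLE h) x hx s

theorem gmO_res {V W : Opens (An.top X)} (h : W ≤ V) (x : An.Pts X) (hx : x ∈ W) (s : O (An.hol X) V) :
    gmO x hx (resO h s) = gmO x (h hx) s :=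
  TopCat.Presheaf.germ_res_apply (An.anSpace X).presheaf (homOfLE h) x hx s

theorem gm_smul (N : An.AnMod X) {V : Opens (An.top X)} (x : An.Pts X) (hx : x ∈ V) (a : O (An.hol X) V) (s : Sec N V) :
    gm N x hx (a • s) = gmO x hx a • gm N x hx s :=
  H974.RSky.pre_germ_smul (A := An.hol X) N.val x V hx a s

theorem exists_gmO_eq (x : An.Pts X) (b : B x) :
    ∃ (V : Opens (An.top X)) (hx : x ∈ V) (a : O (An.hol X) V), gmO x hx a = b := by
  obtain ⟨V, hx, a, h⟩ := TopCat.Presheaf.exists_germ_eq (An.anSpace X).presheaf b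
  exact ⟨V, hx, a, h⟩

theorem exists_gm_eq (N : An.AnMod X) (x : An.Pts X) (b : anStk N x) :
    ∃ (V : Opens (An.top X)) (hx : x ∈ V) (a : Sec N V), gm N x hx a = b := by
  obtain ⟨V, hx, a, h⟩ := TopCat.Presheaf.exists_germ_eq (anPsh N) b
  exact ⟨V, hx, a, h⟩

theorem exists_res_eq_of_gm_eq (N : An.AnMod X) {V : Opens (An.top X)} (x : An.Pts X) (hx : x ∈ V) (s t : Sec N V)
    (h : gm N x hx s = gm N x hx t) : ∃ (W : Opens (An.top X)) (_ : x ∈ W) (hW : W ≤ V), res N hW s = res N hW t := by
  obtain ⟨W, hxW, i, j, hij⟩ := TopCat.Presheaf.germ_eq (anPsh N) x hx hx s t h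
  exact ⟨W, hxW, leOfHom i, hij⟩

section Aff

variable (x : An.Pts X) {U : X.Opens} (hx : x.pt ∈ U)

/-- The ring homomorphism from functions on `U` to holomorphic germs. -/
def rB : Γ(X, U) →+* B x := (anStalkMap x).hom.comp (X.presheaf.germ U x.pt hx).hom

theorem rB_eq (r : Γ(X, U)) : rB x hx r = gmO (V := pre U) x hx (toHol U r) :=
  anStalkMap_germ x U hx r

/-- The map from sections over `U` to the stalk of the analytification. -/
def kap (M : X.Modules) : Γ(M, U) →+ anStk ((An.analytify X).obj M) x :=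
  (can M x).comp (M.presheaf.germ U x.pt hx).hom

theorem kap_eq (M : X.Modules) (m : Γ(M, U)) : kap x hx M m = gm (V := pre U) _ x hx (an m) :=
  can_germ M x U hx m

theorem kap_smul (M : X.Modules) (r : Γ(X, U)) (m : Γ(M, U)) : kap x hx M (r • m) = rB x hx r • kap x hx M m := by
  rw [kap_eq, kap_eq, an_smul, gm_smul, rB_eq]

/-- The algebra structure. -/
abbrev algB : Algebra Γ(X, U) (B x) := (rB x hx).toAlgebra

/-- The module structure on stalks. -/
abbrev modB (N : An.AnMod X) : Module Γ(X, U) (anStk N x) := Module.compHom _ (rB x hx)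

theorem towerB (N : An.AnMod X) :
    letI := algB x hx
    letI := modB x hx N
    IsScalarTower Γ(X, U) (B x) (anStk N x) := by
  letI := algB x hx
  letI := modB x hx N
  refine ⟨fun a b c => ?_⟩
  rw [Algebra.smul_def, mul_smul]
  rfl

/-- `kap` as a linear map. -/
def kapL (M : X.Modules) :
    letI := modB x hx ((An.analytify X).obj M)
    Γ(M, U) →ₗ[Γ(X, U)] anStk ((An.analytify X).obj M) x :=
  letI := modB x hx ((An.analytify X).obj M)
  { toFun := kap x hx M
    map_add' := map_add _
    map_smul' := kap_smul x hx M }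

/-- The module structure of the stalk over the algebraic local ring. -/
abbrev modA (N : An.AnMod X) : Module (X.presheaf.stalk x.pt) (anStk N x) := Module.compHom _ (anStalkMap x).hom

theorem towerA (N : An.AnMod X) :
    letI := anAlg x
    letI := modA x N
    IsScalarTower (X.presheaf.stalk x.pt) (B x) (anStk N x) := by
  letI := anAlg x
  letI := modA x N
  refine ⟨fun a b c => ?_⟩
  rw [Algebra.smul_def, mul_smul]
  rfl

/-- The canonical map on stalks as a linear map. -/
def canL (M : X.Modules) :
    letI := modA x ((An.analytify X).obj M)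
    schStk M x →ₗ[X.presheaf.stalk x.pt] anStk ((An.analytify X).obj M) x :=
  letI := modA x ((An.analytify X).obj M)
  { toFun := can M x
    map_add' := map_add _
    map_smul' := can_smul M x }

theorem isBaseChange_canL (M : X.Modules) :
    letI := anAlg x
    letI := modA x ((An.analytify X).obj M)
    haveI := towerA x ((An.analytify X).obj M)
    IsBaseChange (B x) (canL x M) := by
  letI := anAlg x
  letI := modA x ((An.analytify X).obj M)
  haveI := towerA x ((An.analytify X).obj M)
  exact IsBaseChange.of_equiv (equiv M x) (fun m => (equiv_tmul M x 1 m).trans (one_smul _ _))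

set_option maxHeartbeats 400000 in
theorem isBaseChange_kapL (M : X.Modules) (hM : Coh.IsQCoh M) (hU : IsAffineOpen U) :
    letI := algB x hx
    letI := modB x hx ((An.analytify X).obj M)
    haveI := towerB x hx ((An.analytify X).obj M)
    IsBaseChange (B x) (kapL x hx M) := by
  letI i1 : Algebra Γ(X, U) (X.presheaf.stalk x.pt) := VarietyB.PullSec.germAlg x.pt hx
  letI i2 : Module Γ(X, U) (schStk M x) := Fdesc.QCohStalk.stalkModule M x.pt hx
  haveI i3 : IsScalarTower Γ(X, U) (X.presheaf.stalk x.pt) (schStk M x) := VarietyB.PullSec.stalk_isScalarTower M x.pt hx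
  have h1 : IsBaseChange (X.presheaf.stalk x.pt) (Fdesc.QCohStalk.germₗ M x.pt hx : Γ(M, U) →ₗ[Γ(X, U)] schStk M x) :=
    VarietyB.PullSec.isBaseChange_germ M hM hU x.pt hx
  letI i4 := anAlg x
  letI i5 := modA x ((An.analytify X).obj M)
  haveI i6 := towerA x ((An.analytify X).obj M)
  have h2 := isBaseChange_canL x M
  letI i7 := algB x hx
  letI i8 := modB x hx ((An.analytify X).obj M)
  haveI i9 := towerB x hx ((An.analytify X).obj M)
  haveI i10 : IsScalarTower Γ(X, U) (X.presheaf.stalk x.pt) (B x) := IsScalarTower.of_algebraMap_eq (fun _ => rfl)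
  haveI i11 : IsScalarTower Γ(X, U) (X.presheaf.stalk x.pt) (anStk ((An.analytify X).obj M) x) :=
    ⟨fun a b c => by
      change (anStalkMap x).hom ((X.presheaf.germ U x.pt hx).hom a * b) • c = _
      rw [map_mul, mul_smul]; rfl⟩
  have h3 := IsBaseChange.comp h1 h2
  have h4 : ((canL x M).restrictScalars Γ(X, U)).comp
    (Fdesc.QCohStalk.germₗ M x.pt hx : Γ(M, U) →ₗ[Γ(X, U)] schStk M x) = kapL x hx M := LinearMap.ext fun _ => rfl
  rw [← h4]
  exact h3

theorem flat_rB (hU : IsAffineOpen U) (hflat : (anStalkMap x).hom.Flat) :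
    letI := algB x hx
    Module.Flat Γ(X, U) (B x) := by
  letI i1 := VarietyB.PullSec.germAlg x.pt hx
  letI i4 := anAlg x
  letI i7 := algB x hx
  haveI i10 : IsScalarTower Γ(X, U) (X.presheaf.stalk x.pt) (B x) := IsScalarTower.of_algebraMap_eq (fun _ => rfl)
  have h2 : IsLocalization.AtPrime (X.presheaf.stalk x.pt) (hU.primeIdealOf ⟨x.pt, hx⟩).asIdeal :=
    hU.isLocalization_stalk ⟨x.pt, hx⟩
  haveI : Module.Flat Γ(X, U) (X.presheaf.stalk x.pt) :=
    IsLocalization.flat _ (hU.primeIdealOf ⟨x.pt, hx⟩).asIdeal.primeCompl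
  haveI : Module.Flat (X.presheaf.stalk x.pt) (B x) := hflat
  exact Module.Flat.trans Γ(X, U) (X.presheaf.stalk x.pt) (B x)

end Aff

end Groth.Agent.Gaga.H975.StalkSec
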