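import Groth.Agent.Gaga.H975.Comp
import Groth.Agent.Gaga.H975.StalkSec
import Groth.Agent.Gaga.H975.HomBC
import Groth.Agent.CohqB.HomSheafCoh

/-!
# The comparison map `Hom(M, N)^an → Hom(M^an, N^an)` is bijective for `M` coherent

Input: flatness of `O_{X,x} → O_{X^an,x}` at all complex points.
-/

set_option autoImplicit false
set_option linter.style.haveILetI false

open CategoryTheory TopologicalSpace Opposite AlgebraicGeometry

noncomputable section

namespace Groth.Agent.Gaga.H975.CompIso

open Groth.Agent.Gaga.H975.ModSec Groth.Agent.Gaga.H975.HomMod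
open Groth.Agent.Gaga.H975.AnSec Groth.Agent.Gaga.H975.Gen Groth.Agent.Gaga.H975.Comp
open Groth.Agent.Gaga.H975.StalkSec
open Groth.Agent.Gaga.H974.AnStalk Groth.Agent.Gaga.H974.Analytify
open Groth.Agent.CohqB.HomSheaf (homSheaf comp affineEquiv)

variable {X : Scheme.{0}} [X.Over An.SC]

section Generators

variable (M : X.Modules)

/-- Sections of a quasi-coherent module are locally combinations of sections over a given affine open. -/
theorem exists_local_span (hM : Coh.IsQCoh M) {U : X.Opens} (hU : IsAffineOpen U) (S : Set Γ(M, U))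
    (hS : Submodule.span Γ(X, U) S = ⊤) {U' : X.Opens} (m : Γ(M, U')) (q : X) (hq : q ∈ U) (hq' : q ∈ U') :
    ∃ (V : X.Opens) (_ : q ∈ V) (hV : V ≤ U) (hV' : V ≤ U'),
      M.presheaf.map (homOfLE hV').op m ∈ Submodule.span Γ(X, V) ((fun s => M.presheaf.map (homOfLE hV).op s) '' S) := by
  obtain ⟨f, hfU', hqf⟩ := CohqB.HomSheaf.exists_basicOpen_le hU (V := U ⊓ U') inf_le_left q ⟨hq, hq'⟩
  have hV : X.basicOpen f ≤ U := X.basicOpen_le f
  have hV' : X.basicOpen f ≤ U' := hfU'.trans inf_le_right
  refine ⟨X.basicOpen f, hqf, hV, hV', ?_⟩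
  obtain ⟨n, s, hs⟩ := Fdesc.QCohStalk.exists_map_eq_pow_smul M hU hM f (M.presheaf.map (homOfLE hV').op m)
  have hu : IsUnit (X.presheaf.map (homOfLE hV).op f) := CohqB.HomSheaf.isUnit_resO_basicOpen f le_rfl
  obtain ⟨u, hu⟩ := hu
  have h1 : M.presheaf.map (homOfLE hV').op m = (↑(u⁻¹ ^ n) : Γ(X, X.basicOpen f)) • M.presheaf.map (homOfLE hV).op s := by
    rw [hs, ← hu, smul_smul, ← Units.val_pow_eq_pow_val, ← Units.val_mul, ← mul_pow, inv_mul_cancel, one_pow,
      Units.val_one, one_smul]
  rw [h1]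
  refine Submodule.smul_mem _ _ ?_
  have h2 : s ∈ Submodule.span Γ(X, U) S := by rw [hS]; trivial
  clear hs h1
  induction h2 using Submodule.span_induction with
  | mem s hs => exact Submodule.subset_span ⟨s, hs, rfl⟩
  | zero => rw [map_zero]; exact Submodule.zero_mem _
  | add s t _ _ hs ht => rw [map_add]; exact Submodule.add_mem _ hs ht
  | smul a s _ hs => rw [Scheme.Modules.map_smul]; exact Submodule.smul_mem _ _ hs

/-- Local homomorphisms out of `M^an` over a subset of `U(ℂ)`, `U` affine, are determined by the values on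
generators of `Γ(M, U)`. -/
theorem homOn_ext_gen (hM : Coh.IsQCoh M) {U : X.Opens} (hU : IsAffineOpen U) (S : Set Γ(M, U))
    (hS : Submodule.span Γ(X, U) S = ⊤) {P : An.AnMod X} {V : Opens (An.top X)} (hV : V ≤ pre U)
    {s s' : HomMod.HomOn ((An.analytify X).obj M) P V}
    (h : ∀ m ∈ S, s.ap V le_rfl (res _ hV (an m)) = s'.ap V le_rfl (res _ hV (an m))) : s = s' := by
  apply homOn_ext_an
  intro W hW U' hU' m
  apply eq_of_forall_nhds
  intro x hx
  obtain ⟨V1, hq, hV1, hV1', h1⟩ := exists_local_span M hM hU S hS m (An.Pts.pt x) (hV (hW hx)) (hU' hx)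
  refine ⟨W ⊓ pre V1, ⟨hx, hq⟩, inf_le_left, ?_⟩
  rw [← HomMod.HomOn.ap_res, ← HomMod.HomOn.ap_res, res_res]
  have h2 : res ((An.analytify X).obj M) ((inf_le_left : W ⊓ pre V1 ≤ W).trans hU') (an m) =
      res _ (inf_le_right : W ⊓ pre V1 ≤ pre V1) (an (M.presheaf.map (homOfLE hV1').op m)) := by
    rw [an_res, res_res]
  rw [h2]
  have key : ∀ t ∈ Submodule.span Γ(X, V1) ((fun s => M.presheaf.map (homOfLE hV1).op s) '' S),
      s.ap (W ⊓ pre V1) (inf_le_left.trans hW) (res _ inf_le_right (an t)) =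
      s'.ap (W ⊓ pre V1) (inf_le_left.trans hW) (res _ inf_le_right (an t)) := by
    intro t ht
    induction ht using Submodule.span_induction with
    | mem t ht =>
      obtain ⟨t, ht, rfl⟩ := ht
      have h3 : res ((An.analytify X).obj M) (inf_le_right : W ⊓ pre V1 ≤ pre V1)
          (an (M.presheaf.map (homOfLE hV1).op t)) =
          res _ (inf_le_left.trans hW : W ⊓ pre V1 ≤ V) (res _ hV (an t)) := by
        rw [an_res, res_res, res_res]
      have h4 := congrArg (res P (inf_le_left.trans hW : W ⊓ pre V1 ≤ V)) (h t ht)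
      rw [← HomMod.HomOn.ap_res, ← HomMod.HomOn.ap_res] at h4
      rw [h3]
      exact h4
    | zero => rw [an_zero, map_zero, HomMod.HomOn.ap_zero_right, HomMod.HomOn.ap_zero_right]
    | add s t _ _ hs ht => rw [an_add, map_add, HomMod.HomOn.ap_add_right, HomMod.HomOn.ap_add_right, hs, ht]
    | smul a s _ hs => rw [an_smul, res_smul, HomMod.HomOn.ap_smul_right, HomMod.HomOn.ap_smul_right, hs]
  exact key _ h1

end Generators

/-- The homomorphism over `V` attached to a section of the analytification of the internal Hom. -/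
def cmp {M N : X.Modules} {V : Opens (An.top X)} (s : Sec ((An.analytify X).obj (homSheaf M N)) V) :
    HomMod.HomOn ((An.analytify X).obj M) ((An.analytify X).obj N) V :=
  toHomOn (app (comparison M N) V s)

theorem cmp_add {M N : X.Modules} {V : Opens (An.top X)} (s t : Sec ((An.analytify X).obj (homSheaf M N)) V) :
    cmp (s + t) = cmp s + cmp t := by
  unfold cmp
  rw [map_add]; rfl

theorem cmp_zero {M N : X.Modules} {V : Opens (An.top X)} :
    cmp (0 : Sec ((An.analytify X).obj (homSheaf M N)) V) = 0 := by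
  unfold cmp
  rw [map_zero]; rfl

theorem cmp_sum {M N : X.Modules} {V : Opens (An.top X)} {ι : Type*} (σ : Finset ι)
    (s : ι → Sec ((An.analytify X).obj (homSheaf M N)) V) :
    cmp (∑ i ∈ σ, s i) = ∑ i ∈ σ, cmp (s i) := by
  classical
  induction σ using Finset.induction_on with
  | empty => rw [Finset.sum_empty, Finset.sum_empty, cmp_zero]
  | insert i σ hi ih => rw [Finset.sum_insert hi, Finset.sum_insert hi, cmp_add, ih]

theorem cmp_smul {M N : X.Modules} {V : Opens (An.top X)} (a : O (An.hol X) V)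
    (s : Sec ((An.analytify X).obj (homSheaf M N)) V) : cmp (a • s) = a • cmp s := by
  unfold cmp
  rw [map_smul]; rfl

theorem cmp_res {M N : X.Modules} {V W : Opens (An.top X)} (h : W ≤ V) (s : Sec ((An.analytify X).obj (homSheaf M N)) V) :
    cmp (res _ h s) = HomMod.HomOn.rst h (cmp s) := by
  unfold cmp
  rw [app_res]; rfl

theorem ap_sum {M N : An.AnMod X} {V : Opens (An.top X)} {ι : Type*} (σ : Finset ι)
    (s : ι → HomMod.HomOn M N V) (W : Opens (An.top X)) (hW : W ≤ V) (m : Sec M W) :
    (∑ i ∈ σ, s i).ap W hW m = ∑ i ∈ σ, (s i).ap W hW m := by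
  classical
  induction σ using Finset.induction_on with
  | empty => rw [Finset.sum_empty, Finset.sum_empty, HomMod.HomOn.ap_zero]
  | insert i σ hi ih => rw [Finset.sum_insert hi, Finset.sum_insert hi, HomMod.HomOn.ap_add, ih]

/-- The value of the comparison on a combination of analytifications. -/
theorem cmp_comb {M N : X.Modules} {U : X.Opens} {V : Opens (An.top X)} (hV : V ≤ pre U) {ι : Type*} (σ : Finset ι)
    (a : ι → O (An.hol X) V) (φ : ι → Γ(homSheaf M N, U)) (m : Γ(M, U)) :
    (cmp (∑ i ∈ σ, a i • res _ hV (an (φ i)))).ap V le_rfl (res _ hV (an m)) =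
      ∑ i ∈ σ, a i • res _ hV (an (comp (φ i) U le_rfl m)) := by
  rw [cmp_sum, ap_sum]
  refine Finset.sum_congr rfl fun i _ => ?_
  rw [cmp_smul, HomMod.HomOn.ap_smul, resO_self, cmp_res, HomMod.HomOn.ap_rst]
  congr 1
  have h1 : cmp (an (φ i)) = anHom (φ i) := comparison_an (φ i)
  have h2 := HomMod.HomOn.ap_res (anHom (φ i)) (le_rfl : pre U ≤ pre U) hV (an m)
  rw [h1, h2]
  congr 1
  exact anHom_an (φ i) U le_rfl m

end Groth.Agent.Gaga.H975.CompIso
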