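import Groth.Agent.Gaga.H975.HomMod

/-!
# The module `W ↦ P (W ⊓ V)` and local homomorphisms

`cut P V : Mod R` has sections `P (W ⊓ V)` over `W`; a morphism `M ⟶ cut P V` is the same as an element of
`HomOn M P V`.
-/

set_option autoImplicit false

open CategoryTheory TopologicalSpace Opposite

noncomputable section

namespace Groth.Agent.Gaga.H975.Cut

open Groth.Agent.Gaga.H975.ModSec Groth.Agent.Gaga.H975.HomMod

variable {T : TopCat.{0}} {R : TopCat.Sheaf CommRingCat.{0} T}

/-- Sections of `P` over `W ⊓ V`. -/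
def CutSec (P : Mod R) (V W : Opens T) : Type := Sec P (W ⊓ V)

instance (P : Mod R) (V W : Opens T) : AddCommGroup (CutSec P V W) := inferInstanceAs (AddCommGroup (Sec P (W ⊓ V)))

instance (P : Mod R) (V W : Opens T) : Module (O R W) (CutSec P V W) :=
  Module.compHom (Sec P (W ⊓ V)) (resO (inf_le_left : W ⊓ V ≤ W))

theorem cutSec_smul (P : Mod R) (V W : Opens T) (a : O R W) (s : CutSec P V W) :
    a • s = (show CutSec P V W from resO (inf_le_left : W ⊓ V ≤ W) a • (show Sec P (W ⊓ V) from s)) := rfl

/-- The data of `cut P V`. -/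
def cutData (P : Mod R) (V : Opens T) : Data R where
  S W := CutSec P V W
  r {W W'} h := res P (inf_le_inf_right V h)
  r_self _ s := res_self P _ s
  r_r _ _ s := res_res P _ _ s
  r_smul {W W'} h a s := by
    change res P (inf_le_inf_right V h) (resO (inf_le_left : W ⊓ V ≤ W) a • (show Sec P (W ⊓ V) from s)) =
      resO (inf_le_left : W' ⊓ V ≤ W') (resO h a) • res P (inf_le_inf_right V h) (show Sec P (W ⊓ V) from s)
    rw [res_smul, resO_resO, resO_resO]
  ext {ι} U s t h := by
    refine eq_of_locally P (fun i => U i ⊓ V) _ ?_ (fun i => inf_le_inf_right V (le_iSup U i)) _ _ fun i => h i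
    rw [iSup_inf_eq]
  glue {ι} U s h := by
    refine exists_glue P (fun i => U i ⊓ V) ((⨆ i, U i) ⊓ V) (by rw [iSup_inf_eq])
      (fun i => inf_le_inf_right V (le_iSup U i)) s ?_
    intro i j W hi hj
    have h0 : W ≤ U i ⊓ U j ⊓ V :=
      le_inf (le_inf (hi.trans inf_le_left) (hj.trans inf_le_left)) (hi.trans inf_le_right)
    have h1 := congrArg (res P h0) (h i j)
    erw [res_res, res_res] at h1
    exact h1

/-- The module `W ↦ P (W ⊓ V)`. -/
def cut (P : Mod R) (V : Opens T) : Mod R := (cutData P V).toMod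

/-- Sections of the cut. -/
def toCut {P : Mod R} {V W : Opens T} (s : Sec P (W ⊓ V)) : Sec (cut P V) W := s

/-- Sections of the cut. -/
def ofCut {P : Mod R} {V W : Opens T} (s : Sec (cut P V) W) : Sec P (W ⊓ V) := s

theorem ofCut_add {P : Mod R} {V W : Opens T} (s t : Sec (cut P V) W) : ofCut (s + t) = ofCut s + ofCut t := rfl

theorem ofCut_smul {P : Mod R} {V W : Opens T} (a : O R W) (s : Sec (cut P V) W) :
    ofCut (a • s) = resO (inf_le_left : W ⊓ V ≤ W) a • ofCut s := rfl

theorem ofCut_res {P : Mod R} {V W W' : Opens T} (h : W' ≤ W) (s : Sec (cut P V) W) :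
    ofCut (res (cut P V) h s) = res P (inf_le_inf_right V h) (ofCut s) := rfl

/-- The element of `HomOn M P V` attached to a morphism `M ⟶ cut P V`. -/
def homOnOfCut {M P : Mod R} {V : Opens T} (f : M ⟶ cut P V) : HomOn M P V :=
  HomOn.mk' (fun W hW m => res P (le_inf le_rfl hW) (ofCut (app f W m)))
    (fun W hW m m' => by rw [map_add, ofCut_add, map_add])
    (fun W hW r m => by rw [map_smul, ofCut_smul, res_smul, resO_resO, resO_self])
    (fun W W' hW h m => by rw [app_res, ofCut_res, res_res, res_res])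

theorem ap_homOnOfCut {M P : Mod R} {V : Opens T} (f : M ⟶ cut P V) (W : Opens T) (hW : W ≤ V) (m : Sec M W) :
    (homOnOfCut f).ap W hW m = res P (le_inf le_rfl hW) (ofCut (app f W m)) := rfl

end Groth.Agent.Gaga.H975.Cut
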