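import Groth.Agent.Gaga.H975.DInd
import Groth.Agent.Gaga.H294.MVNear
import Groth.Agent.Gaga.H976.TM0
import Groth.Agent.Gaga.H977.CanAcyc
import Groth.Agent.Gaga.H974.RExact
import Groth.Prelude.Def_AnHol

/-!
# Direct images of analytic modules along maps with acyclic fibres

* `locAcyc_of_indZero`: `f` closed, classes in `H^q(nbhd of the fibre, F)`, `q ≥ 1`, die near the fibre
  ⟹ `LocAcyc f F`.
* `epi_anPushMap`: `f^an_*` maps an epimorphism with acyclic kernel to an epimorphism.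
-/

set_option autoImplicit false
universe u

open CategoryTheory Abelian Limits Opposite TopologicalSpace AlgebraicGeometry Topology

noncomputable section

namespace Groth.Agent.Gaga.H975.DAn

open Groth.Agent.Gaga.H41.Ind Groth.Agent.CohtopA.MVElem Groth.Agent.CohtopA.FreeAb
open Groth.Agent.Gaga.H294.MVNear

section Top

variable {X Y : TopCat.{u}} (f : X ⟶ Y)

/-- Neighbourhoods of the fibres of a closed map. -/
theorem exists_preimage_le (hf : IsClosedMap f) (y : Y) (U : Opens X)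
    (hU : {x | f x = y} ⊆ (U : Set X)) : ∃ W : Opens Y, y ∈ W ∧ (Opens.map f).obj W ≤ U := by
  refine ⟨⟨(f '' (U : Set X)ᶜ)ᶜ, (hf _ U.isOpen.isClosed_compl).isOpen_compl⟩, ?_, ?_⟩
  · rintro ⟨x, hx, hxy⟩
    exact hx (hU hxy)
  · intro x hx
    by_contra h
    exact hx ⟨x, h, rfl⟩

theorem exists_res_eq_zero (hf : IsClosedMap f) {F : CohTop.Ab X} {q : ℕ} (y : Y)
    (h : IndZero F {x | f x = y} q) (V : Opens Y) (hy : y ∈ V)
    (a : CohTop.HU F q ((Opens.map f).obj V)) :
    ∃ (W : Opens Y) (hW : W ≤ V), y ∈ W ∧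
      CohTop.res F q (U := (Opens.map f).obj V) (V := (Opens.map f).obj W)
        (fun _ hx => hW hx) a = 0 := by
  obtain ⟨U, hUV, hyU, hU⟩ := h ((Opens.map f).obj V) (fun x hx => by
    change f x ∈ V
    have h2 : f x = y := hx
    rwa [h2]) a
  obtain ⟨W, hyW, hW⟩ := exists_preimage_le f hf y U hyU
  refine ⟨W ⊓ V, inf_le_right, ⟨hyW, hy⟩, ?_⟩
  have h1 : (Opens.map f).obj (W ⊓ V) ≤ U := fun x hx => hW hx.1
  have h2 := res_res F q hUV h1 a
  rw [hU, map_zero] at h2
  exact h2.symm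

theorem locAcyc_of_indZero (hf : IsClosedMap f) {F : CohTop.Ab X}
    (h : ∀ (y : Y) (q : ℕ), 1 ≤ q → IndZero F {x | f x = y} q) :
    Groth.Agent.Gaga.H977.CanAcyc.LocAcyc f F := fun q V a y hy =>
  exists_res_eq_zero f hf y (h y (q + 1) (by omega)) V hy a

theorem sec_HUmap {F G : CohTop.Ab X} (g : F ⟶ G) (U : Opens X) (x : CohTop.HU F 0 U) :
    sec G U (CohTop.HUmap g 0 U x) = g.hom.app (op U) (sec F U x) :=
  Groth.Agent.CohtopB.H0Iso.h0a_comp (Opens.grothendieckTopology X) g x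

/-- Lifting of sections near a fibre. -/
theorem exists_section (hf : IsClosedMap f) {S : ShortComplex (CohTop.Ab X)} (hS : S.ShortExact)
    (y : Y) (h : IndZero S.X₁ {x | f x = y} 1) (V : Opens Y) (hy : y ∈ V)
    (t : S.X₃.obj.obj (op ((Opens.map f).obj V))) :
    ∃ (W : Opens Y) (hW : W ≤ V), y ∈ W ∧ ∃ s : S.X₂.obj.obj (op ((Opens.map f).obj W)),
      S.g.hom.app (op ((Opens.map f).obj W)) s =
        S.X₃.obj.map (homOfLE (fun _ hx => hW hx :
          (Opens.map f).obj W ≤ (Opens.map f).obj V)).op t := by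
  obtain ⟨W, hW, hyW, h0⟩ := exists_res_eq_zero f hf y h V hy
    (dd hS 0 _ ((sec S.X₃ ((Opens.map f).obj V)).symm t))
  have hle : (Opens.map f).obj W ≤ (Opens.map f).obj V := fun _ hx => hW hx
  rw [res_dd] at h0
  obtain ⟨b, hb⟩ := exists_of_dd_eq_zero hS _ h0
  refine ⟨W, hW, hyW, sec S.X₂ _ b, ?_⟩
  rw [← sec_HUmap, hb, sec_res, AddEquiv.apply_symm_apply]

end Top

section An

variable {X S : Scheme.{0}} [X.Over An.SC] [S.Over An.SC] (f : X ⟶ S) [f.IsOver An.SC]

/-- The abelian sheaf functor on analytic modules. -/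
abbrev toAbF (X : Scheme.{0}) [X.Over An.SC] : An.AnMod X ⥤ CohTop.Ab (An.top X) :=
  SheafOfModules.toSheaf (An.holRing X)

instance (X : Scheme.{0}) [X.Over An.SC] : PreservesFiniteColimits (toAbF X) :=
  Groth.Agent.Gaga.H974.RExact.toSheaf_preservesFiniteColimits (An.hol X)

/-- `f^an_*` of an epimorphism with kernel acyclic along the fibres. -/
theorem epi_anPushMap (hf : IsClosedMap (An.Pts.map f)) {C : ShortComplex (An.AnMod X)}
    (hC : C.ShortExact)
    (h : ∀ y : An.Pts S, IndZero (An.AnMod.toAb C.X₁) {x : An.Pts X | An.Pts.map f x = y} 1) :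
    Epi ((An.anPushMap f).map C.g) := by
  have hS' : (C.map (toAbF X)).ShortExact := hC.map_of_exact (toAbF X)
  rw [Groth.Agent.Gaga.H976.TM0.epi_iff_isLocallySurjective]
  refine ⟨fun {V} t y hy => ?_⟩
  obtain ⟨W, hW, hyW, s, hs⟩ := exists_section (An.topMap f) hf hS' y (h y) V hy t
  exact ⟨W, homOfLE hW, ⟨s, hs⟩, hyW⟩

end An

end Groth.Agent.Gaga.H975.DAn
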