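import Groth.Agent.Gaga.H41.Ind
import Groth.Agent.Gaga.H983.DimPts

/-!
# Vanishing of germs of cohomology for large twists

`𝒞` an abelian category (coherent modules), `A : 𝒞 ⥤ Ab T` exact, `Tw k` exact endofunctors.

* `indZero_of_sum`: finite direct sums.
* `exists_indZero`: if every object `N` is a quotient of an object whose twists are acyclic along all
  `K ∈ 𝒦`, with kernel in the class, then the large twists of `N` are acyclic along all `K ∈ 𝒦`.
* `exists_uniform_bound`: a uniform bound for the cohomological dimension of the compact subsets of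
  `X(ℂ)`, `X` quasi-compact.
-/

set_option autoImplicit false
universe u v w

open CategoryTheory Abelian Limits Opposite TopologicalSpace AlgebraicGeometry

noncomputable section

namespace Groth.Agent.Gaga.H975.DInd

open Groth.Agent.Gaga.H41.Ind Groth.Agent.CohtopA.MVElem Groth.Agent.CohtopA.FreeAb

section Sum

variable {T : TopCat.{u}}

theorem HUmap_comp {F G H : CohTop.Ab T} (φ : F ⟶ G) (ψ : G ⟶ H) (q : ℕ) (U : Opens T)
    (a : CohTop.HU F q U) :
    CohTop.HUmap (φ ≫ ψ) q U a = CohTop.HUmap ψ q U (CohTop.HUmap φ q U a) := by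
  rw [HUmap_apply, HUmap_apply, HUmap_apply, Ext.comp_assoc_of_third_deg_zero, Ext.mk₀_comp_mk₀]

theorem HUmap_sum {F G : CohTop.Ab T} {J : Type*} (s : Finset J) (φ : J → (F ⟶ G)) (q : ℕ)
    (U : Opens T) (a : CohTop.HU F q U) :
    CohTop.HUmap (∑ j ∈ s, φ j) q U a = ∑ j ∈ s, CohTop.HUmap (φ j) q U a := by
  classical
  induction s using Finset.induction_on with
  | empty =>
    rw [Finset.sum_empty, Finset.sum_empty, HUmap_apply, Ext.mk₀_zero, Ext.comp_zero]
    rfl
  | insert j s hj ih =>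
    rw [Finset.sum_insert hj, Finset.sum_insert hj, ← ih, HUmap_apply, Ext.mk₀_add, Ext.comp_add]
    rfl

theorem HUmap_id {F : CohTop.Ab T} (q : ℕ) (U : Opens T) (a : CohTop.HU F q U) :
    CohTop.HUmap (𝟙 F) q U a = a := by
  rw [HUmap_apply, Ext.comp_mk₀_id]

/-- Germs of cohomology classes of finite direct sums. -/
theorem indZero_of_sum {F : CohTop.Ab T} {J : Type*} [Fintype J] (G : J → CohTop.Ab T)
    (ι : ∀ j, G j ⟶ F) (π : ∀ j, F ⟶ G j) (h : ∑ j, π j ≫ ι j = 𝟙 F) {K : Set T} {q : ℕ}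
    (hG : ∀ j, IndZero (G j) K q) : IndZero F K q := by
  intro U hU a
  choose V hVU hKV hV using fun j => hG j U hU (CohTop.HUmap (π j) q U a)
  refine ⟨U ⊓ Finset.univ.inf V, inf_le_left, ?_, ?_⟩
  · intro x hx
    refine ⟨hU hx, ?_⟩
    rw [TopologicalSpace.Opens.coe_finset_inf]
    simp only [Finset.inf_eq_iInf, Set.iInf_eq_iInter, Set.mem_iInter]
    exact fun j _ => hKV j hx
  · have h1 : CohTop.res F q (inf_le_left : U ⊓ Finset.univ.inf V ≤ U) a =
        CohTop.res F q inf_le_left (CohTop.HUmap (∑ j, π j ≫ ι j) q U a) := by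
      rw [h, HUmap_id]
    rw [h1, HUmap_sum, map_sum]
    refine Finset.sum_eq_zero fun j _ => ?_
    have hle : U ⊓ Finset.univ.inf V ≤ V j := inf_le_right.trans (Finset.inf_le (Finset.mem_univ j))
    rw [HUmap_comp, res_HUmap, ← res_res (G j) q (hVU j) hle, hV, map_zero, map_zero]

end Sum

section Twist

variable {T : TopCat.{u}} {𝒞 : Type v} [Category.{w} 𝒞] [Abelian 𝒞] (A : 𝒞 ⥤ CohTop.Ab T)
  [A.Additive] [PreservesFiniteLimits A] [PreservesFiniteColimits A] (Tw : ℤ → 𝒞 ⥤ 𝒞)
  [∀ k, (Tw k).Additive] [∀ k, PreservesFiniteLimits (Tw k)] [∀ k, PreservesFiniteColimits (Tw k)]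
  (P : 𝒞 → Prop) (𝒦 : Set (Set T)) (D : ℕ)

/-- **Serre's descending induction.** -/
theorem exists_indZero (hD : ∀ (F : CohTop.Ab T), ∀ K ∈ 𝒦, ∀ q, D < q → IndZero F K q)
    (hres : ∀ N, P N → ∃ S : ShortComplex 𝒞, S.ShortExact ∧ Nonempty (S.X₃ ≅ N) ∧ P S.X₁ ∧
      ∃ a : ℤ, ∀ k, a ≤ k → ∀ q, 1 ≤ q → ∀ K ∈ 𝒦, IndZero (A.obj ((Tw k).obj S.X₂)) K q)
    (N : 𝒞) (hN : P N) :
    ∃ a : ℤ, ∀ k, a ≤ k → ∀ q, 1 ≤ q → ∀ K ∈ 𝒦, IndZero (A.obj ((Tw k).obj N)) K q := by
  have key : ∀ (j q₀ : ℕ), D + 1 = j + q₀ → 1 ≤ q₀ → ∀ N, P N →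
      ∃ a : ℤ, ∀ k, a ≤ k → ∀ q, q₀ ≤ q → ∀ K ∈ 𝒦, IndZero (A.obj ((Tw k).obj N)) K q := by
    intro j
    induction j with
    | zero =>
      intro q₀ hq₀ _ N _
      exact ⟨0, fun k _ q hq K hK => hD _ K hK q (by omega)⟩
    | succ j ih =>
      intro q₀ hq₀ h1 N hN
      obtain ⟨S, hS, ⟨e⟩, hP, a, ha⟩ := hres N hN
      obtain ⟨b, hb⟩ := ih (q₀ + 1) (by omega) (by omega) S.X₁ hP
      refine ⟨max a b, fun k hk q hq K hK => ?_⟩
      have hS' : ((S.map (Tw k)).map A).ShortExact :=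
        (hS.map_of_exact (Tw k)).map_of_exact A
      have h2 : IndZero (A.obj ((Tw k).obj S.X₃)) K q :=
        IndZero.ses₃ hS' (ha k (by omega) q (by omega) K hK) (hb k (by omega) (q + 1) (by omega) K hK)
      exact h2.congr (A.mapIso ((Tw k).mapIso e))
  exact key D 1 rfl le_rfl N hN

end Twist

section Bound

open Groth.Agent.Gaga.H983.DimBound Groth.Agent.Gaga.H983.DimPts

/-- A uniform bound for the cohomological dimension of compact sets of complex points. -/
theorem exists_uniform_bound (X : Scheme.{0}) [X.Over An.SC] [LocallyOfFiniteType (X ↘ An.SC)]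
    [CompactSpace X] [T2Space (An.Pts X)] : ∃ D : ℕ, ∀ (F : CohTop.Ab (An.top X))
      (K : Set (An.top X)), IsCompact K → ∀ q, D < q → IndZero F K q := by
  classical
  have : T2Space (An.top X) := inferInstanceAs (T2Space (An.Pts X))
  choose V hVa hxV _ using fun x : X =>
    exists_isAffineOpen_mem_and_subset (x := x) (U := ⊤) trivial
  obtain ⟨t, ht⟩ := (isCompact_univ (X := X)).elim_finite_subcover (fun x : X => (V x : Set X))
    (fun x => (V x).2) (fun x _ => Set.mem_iUnion.mpr ⟨x, hxV x⟩)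
  let W : X → Set (An.top X) := fun x => (An.Pts.pt ⁻¹' (V x : Set X) : Set (An.Pts X))
  choose D hD using fun x : X => exists_boundedBy_affine (hVa x) (W x) le_rfl
  have hW : ∀ x, IsOpen (W x) := fun x => An.Pts.isOpen_preimage_pt (V x)
  have key : ∀ (s : Finset X) (L : X → Set (An.top X)), (∀ x, IsCompact (L x)) →
      (∀ x ∈ s, L x ⊆ W x) → BoundedBy (⋃ x ∈ s, L x) (s.sup D + s.card) := by
    intro s
    induction s using Finset.induction_on with
    | empty =>
      intro L _ _ F K' _ hsub q _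
      simp only [Finset.notMem_empty, Set.iUnion_of_empty, Set.iUnion_empty,
        Set.subset_empty_iff] at hsub
      rw [hsub]
      exact Groth.Agent.Gaga.H41.Ind.indZero_empty q
    | insert x s hx ih =>
      intro L hL hLW
      have h1 := ih L hL fun y hy => hLW y (Finset.mem_insert_of_mem hy)
      have h2 : BoundedBy (L x) (D x) := (hD x).mono (hLW x (Finset.mem_insert_self x s)) le_rfl
      rw [Finset.set_biUnion_insert]
      have h3 := BoundedBy.union (hL x) (s.isCompact_biUnion fun y _ => hL y)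
        (h2.mono le_rfl (show D x ≤ (insert x s).sup D + s.card from
          (Finset.le_sup (Finset.mem_insert_self x s)).trans (Nat.le_add_right _ _)))
        (h1.mono le_rfl (show s.sup D + s.card ≤ (insert x s).sup D + s.card from
          Nat.add_le_add_right (Finset.sup_mono (Finset.subset_insert x s)) _))
      rw [Finset.card_insert_of_notMem hx, ← add_assoc]
      exact h3
  refine ⟨t.sup D + t.card, fun F K hK q hq => ?_⟩
  have hcov : K ⊆ ⋃ x ∈ t, W x := by
    intro y _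
    obtain ⟨x, hx⟩ := Set.mem_iUnion.1 (ht (Set.mem_univ (An.Pts.pt (X := X) y)))
    obtain ⟨hxt, hyx⟩ := Set.mem_iUnion.1 hx
    exact Set.mem_biUnion hxt hyx
  obtain ⟨L, hL, hLW, hKL⟩ := hK.finite_compact_cover t W (fun x _ => hW x) hcov
  rw [hKL]
  exact key t L hL (fun x _ => hLW x) F _ (t.isCompact_biUnion fun y _ => hL y) le_rfl q hq

end Bound

end Groth.Agent.Gaga.H975.DInd
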