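import Groth.Agent.Gaga.H975.AnSec
import Groth.Agent.CohqB.HomSheafMap

/-!
# Sections of `M^an` are locally linear combinations of analytifications of sections of `M`
-/

set_option autoImplicit false

open CategoryTheory TopologicalSpace Opposite AlgebraicGeometry

noncomputable section

namespace Groth.Agent.Gaga.H975.Gen

open Groth.Agent.Gaga.H975.ModSec Groth.Agent.Gaga.H975.HomMod Groth.Agent.Gaga.H975.Cut
open Groth.Agent.Gaga.H975.AnSec
open Groth.Agent.CohqB.HomSheaf (homMkSec homMkSec_app)

section General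

variable {T : TopCat.{0}} {R : TopCat.Sheaf CommRingCat.{0} T} (P : Mod R) (G : ∀ V : Opens T, Set (Sec P V))

/-- The submodule of sections over `W` generated by the members of a family of sections over larger opens. -/
def spanOn (W : Opens T) : Submodule (O R W) (Sec P W) :=
  Submodule.span (O R W) {s | ∃ (V : Opens T) (h : W ≤ V) (g : Sec P V), g ∈ G V ∧ res P h g = s}

theorem res_mem_spanOn {W W' : Opens T} (h : W' ≤ W) {s : Sec P W} (hs : s ∈ spanOn P G W) :
    res P h s ∈ spanOn P G W' := by
  induction hs using Submodule.span_induction with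
  | mem s hs =>
    obtain ⟨V, hV, g, hg, rfl⟩ := hs
    exact Submodule.subset_span ⟨V, h.trans hV, g, hg, (res_res P hV h g).symm⟩
  | zero => rw [map_zero]; exact Submodule.zero_mem _
  | add s t _ _ hs ht => rw [map_add]; exact Submodule.add_mem _ hs ht
  | smul a s _ hs => rw [res_smul]; exact Submodule.smul_mem _ _ hs

/-- The submodule of sections which are locally in `spanOn`. -/
def genSub (V : Opens T) : Submodule (O R V) (Sec P V) where
  carrier := {s | ∀ x ∈ V, ∃ (W : Opens T) (_ : x ∈ W) (h : W ≤ V), res P h s ∈ spanOn P G W}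
  zero_mem' x hx := ⟨V, hx, le_rfl, by rw [map_zero]; exact Submodule.zero_mem _⟩
  add_mem' := by
    intro s t hs ht x hx
    obtain ⟨W, hxW, hW, h1⟩ := hs x hx
    obtain ⟨W', hxW', hW', h2⟩ := ht x hx
    refine ⟨W ⊓ W', ⟨hxW, hxW'⟩, inf_le_left.trans hW, ?_⟩
    rw [map_add]
    refine Submodule.add_mem _ ?_ ?_
    · rw [← res_res P hW (inf_le_left : W ⊓ W' ≤ W)]
      exact res_mem_spanOn P G _ h1
    · rw [← res_res P hW' (inf_le_right : W ⊓ W' ≤ W')]
      exact res_mem_spanOn P G _ h2
  smul_mem' := by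
    intro a s hs x hx
    obtain ⟨W, hxW, hW, h1⟩ := hs x hx
    refine ⟨W, hxW, hW, ?_⟩
    rw [res_smul]
    exact Submodule.smul_mem _ _ h1

theorem mem_genSub {V : Opens T} {s : Sec P V} :
    s ∈ genSub P G V ↔ ∀ x ∈ V, ∃ (W : Opens T) (_ : x ∈ W) (h : W ≤ V), res P h s ∈ spanOn P G W := Iff.rfl

theorem res_mem_genSub {V V' : Opens T} (h : V' ≤ V) {s : Sec P V} (hs : s ∈ genSub P G V) :
    res P h s ∈ genSub P G V' := by
  intro x hx
  obtain ⟨W, hxW, hW, h1⟩ := hs x (h hx)
  refine ⟨W ⊓ V', ⟨hxW, hx⟩, inf_le_right, ?_⟩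
  rw [res_res, ← res_res P hW (inf_le_left : W ⊓ V' ≤ W)]
  exact res_mem_spanOn P G _ h1

/-- The data of the submodule generated by `G`. -/
def genData : Data R where
  S V := genSub P G V
  r {V W} h :=
    { toFun := fun s => ⟨res P h s.1, res_mem_genSub P G h s.2⟩
      map_zero' := Subtype.ext (map_zero _)
      map_add' := fun s t => Subtype.ext (map_add _ _ _) }
  r_self h s := Subtype.ext (res_self P h s.1)
  r_r h h' s := Subtype.ext (res_res P h h' s.1)
  r_smul h a s := Subtype.ext (res_smul P h a s.1)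
  ext U s t h := Subtype.ext (eq_of_locally P U _ le_rfl (fun i => le_iSup U i) _ _ fun i => congrArg Subtype.val (h i))
  glue {ι} U s h := by
    obtain ⟨t, ht⟩ := exists_glue P U (⨆ i, U i) le_rfl (fun i => le_iSup U i) (fun i => (s i).1) (by
      intro i j W hi hj
      have h1 := congrArg (res P (le_inf hi hj)) (congrArg Subtype.val (h i j))
      change res P (le_inf hi hj) (res P _ (s i).1) = res P (le_inf hi hj) (res P _ (s j).1) at h1
      rw [res_res, res_res] at h1
      exact h1)
    refine ⟨⟨t, ?_⟩, fun i => Subtype.ext (ht i)⟩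
    intro x hx
    obtain ⟨i, hi⟩ := Opens.mem_iSup.1 hx
    obtain ⟨W, hxW, hW, h1⟩ := (s i).2 x hi
    refine ⟨W, hxW, hW.trans (le_iSup U i), ?_⟩
    rw [← res_res P (le_iSup U i) hW, ht i]
    exact h1

/-- The submodule generated by `G`. -/
def genMod : Mod R := (genData P G).toMod

/-- The inclusion of the submodule generated by `G`. -/
def incl : genMod P G ⟶ P :=
  homMk (fun V => (genSub P G V).subtype.toAddMonoidHom) (fun _ _ _ => rfl) (fun _ _ _ _ => rfl)

theorem app_incl_mem (V : Opens T) (s : Sec (genMod P G) V) : app (incl P G) V s ∈ genSub P G V :=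
  Subtype.property (show genSub P G V from s)

end General

variable {X : Scheme.{0}} [X.Over An.SC]

/-- The family of all analytifications of sections. -/
def anFam (M : X.Modules) (V : Opens (An.top X)) : Set (Sec ((An.analytify X).obj M) V) :=
  {s | ∃ (U : X.Opens) (h : V = pre U) (m : Γ(M, U)), s = res _ h.le (an m)}

theorem an_mem_anFam {M : X.Modules} {U : X.Opens} (m : Γ(M, U)) : an m ∈ anFam M (pre U) :=
  ⟨U, rfl, m, (res_self _ _ _).symm⟩

theorem an_mem_genSub {M : X.Modules} {U : X.Opens} (m : Γ(M, U)) : an m ∈ genSub _ (anFam M) (pre U) := fun x hx =>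
  ⟨pre U, hx, le_rfl, Submodule.subset_span ⟨pre U, le_rfl, an m, an_mem_anFam m, rfl⟩⟩

/-- The unit, with values in the submodule generated by its image. -/
def toGen (M : X.Modules) : M ⟶ (An.anPush X).obj (genMod ((An.analytify X).obj M) (anFam M)) :=
  homMkSec _ _ (fun U =>
    { toFun := fun m => toPush (P := genMod ((An.analytify X).obj M) (anFam M))
        (show Sec (genMod ((An.analytify X).obj M) (anFam M)) (pre U) from ⟨an m, an_mem_genSub m⟩)
      map_zero' := Subtype.ext an_zero
      map_add' := fun m m' => Subtype.ext (an_add m m') })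
    (fun U r m => Subtype.ext (an_smul r m))
    (fun U V h m => Subtype.ext (an_res h m))

theorem mem_genSub_anFam (M : X.Modules) {V : Opens (An.top X)} (s : Sec ((An.analytify X).obj M) V) :
    s ∈ genSub _ (anFam M) V := by
  have h : adj (toGen M) ≫ incl _ (anFam M) = 𝟙 _ := by
    apply hom_ext_an
    intro U m
    rw [app_comp, app_adj_an, app_id]
    rfl
  have h2 : app (adj (toGen M) ≫ incl _ (anFam M)) V s = s := by rw [h, app_id]
  rw [← h2, app_comp]
  exact app_incl_mem _ _ _ _

/-- Generation: an additive, linear property of sections of `M^an` which holds for analytifications of sections holds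
for all, locally. -/
theorem exists_mem_span (M : X.Modules) {V : Opens (An.top X)} (s : Sec ((An.analytify X).obj M) V) (x : An.top X)
    (hx : x ∈ V) : ∃ (W : Opens (An.top X)) (_ : x ∈ W) (h : W ≤ V), res _ h s ∈
      Submodule.span (O (An.hol X) W) {t | ∃ (U : X.Opens) (h : W ≤ pre U) (m : Γ(M, U)), res _ h (an m) = t} := by
  obtain ⟨W, hxW, hW, h1⟩ := mem_genSub_anFam M s x hx
  refine ⟨W, hxW, hW, Submodule.span_mono ?_ h1⟩
  rintro _ ⟨V', hV', _, ⟨U, rfl, m, rfl⟩, rfl⟩
  exact ⟨U, hV', m, by rw [res_res]⟩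

/-- Local homomorphisms out of `M^an` are determined by their values on analytifications of sections. -/
theorem homOn_ext_an {M : X.Modules} {P : An.AnMod X} {V : Opens (An.top X)}
    {s s' : HomMod.HomOn ((An.analytify X).obj M) P V}
    (h : ∀ (W : Opens (An.top X)) (hW : W ≤ V) (U : X.Opens) (hU : W ≤ pre U) (m : Γ(M, U)),
      s.ap W hW (res _ hU (an m)) = s'.ap W hW (res _ hU (an m))) : s = s' := by
  apply HomMod.HomOn.ext'
  intro W hW m
  apply eq_of_forall_nhds
  intro x hx
  obtain ⟨W', hxW', hW', h1⟩ := exists_mem_span M m x hx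
  refine ⟨W', hxW', hW', ?_⟩
  rw [← HomMod.HomOn.ap_res, ← HomMod.HomOn.ap_res]
  have key : ∀ t ∈ Submodule.span (O (An.hol X) W') {t : Sec ((An.analytify X).obj M) W' |
      ∃ (U : X.Opens) (h : W' ≤ pre U) (m : Γ(M, U)), res _ h (an m) = t},
      s.ap W' (hW'.trans hW) t = s'.ap W' (hW'.trans hW) t := by
    intro t ht
    induction ht using Submodule.span_induction with
    | mem t ht =>
      obtain ⟨U, hU, m, rfl⟩ := ht
      exact h W' _ U hU m
    | zero => rw [HomMod.HomOn.ap_zero_right, HomMod.HomOn.ap_zero_right]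
    | add s t _ _ hs ht => rw [HomMod.HomOn.ap_add_right, HomMod.HomOn.ap_add_right, hs, ht]
    | smul a s _ hs => rw [HomMod.HomOn.ap_smul_right, HomMod.HomOn.ap_smul_right, hs]
  exact key _ h1

/-- Over the complex points of an open `U` of `X` it is enough to test on sections over smaller opens of `X`. -/
theorem homOn_ext_pre {M : X.Modules} {P : An.AnMod X} {U : X.Opens}
    {s s' : HomMod.HomOn ((An.analytify X).obj M) P (pre U)}
    (h : ∀ (U' : X.Opens) (hU' : U' ≤ U) (m : Γ(M, U')),
      s.ap (pre U') (pre_mono hU') (an m) = s'.ap (pre U') (pre_mono hU') (an m)) : s = s' := by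
  apply homOn_ext_an
  intro W hW U' hU' m
  have h1 : res ((An.analytify X).obj M) hU' (an m) =
      res _ (show W ≤ pre (U' ⊓ U) from le_inf hU' hW) (an (M.presheaf.map (homOfLE inf_le_left).op m)) := by
    rw [an_res, res_res]
  rw [h1, HomMod.HomOn.ap_res s (pre_mono inf_le_right), HomMod.HomOn.ap_res s' (pre_mono inf_le_right), h _ inf_le_right]

end Groth.Agent.Gaga.H975.Gen
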