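import Groth.Agent.Gaga.H975.ModSec

/-!
# Internal Hom of sheaves of modules over a sheaf of commutative rings on a space

`HomOn M N U`: compatible families of linear maps `Sec M V → Sec N V`, `V ≤ U`;
`homMod M N : Mod R` the sheaf `U ↦ HomOn M N U`; `topEquiv : HomOn M N ⊤ ≃ (M ⟶ N)`.
-/

set_option autoImplicit false

open CategoryTheory TopologicalSpace Opposite

noncomputable section

namespace Groth.Agent.Gaga.H975.HomMod

open Groth.Agent.Gaga.H975.ModSec

variable {T : TopCat.{0}} {R : TopCat.Sheaf CommRingCat.{0} T}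

/-- The additive group of compatible families of linear maps `Sec M V → Sec N V`, `V ≤ U`. -/
def homOnSubgroup (M N : Mod R) (U : Opens T) : AddSubgroup (∀ V : {V : Opens T // V ≤ U}, (Sec M V.1 →+ Sec N V.1)) where
  carrier := {φ | (∀ V (r : O R V.1) (m : Sec M V.1), φ V (r • m) = r • φ V m) ∧
    ∀ (V W : {V : Opens T // V ≤ U}) (h : W.1 ≤ V.1) (m : Sec M V.1), φ W (res M h m) = res N h (φ V m)}
  zero_mem' := ⟨fun V r m => by simp, fun V W h m => by simp⟩
  add_mem' := by
    rintro φ ψ ⟨h1, h2⟩ ⟨h1', h2'⟩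
    exact ⟨fun V r m => by simp [h1, h1'], fun V W h m => by simp [h2, h2']⟩
  neg_mem' := by
    rintro φ ⟨h1, h2⟩
    exact ⟨fun V r m => by simp [h1], fun V W h m => by simp [h2]⟩

/-- Compatible families of linear maps `Sec M V → Sec N V`, `V ≤ U`. -/
def HomOn (M N : Mod R) (U : Opens T) : Type := ↥(homOnSubgroup M N U)

instance (M N : Mod R) (U : Opens T) : AddCommGroup (HomOn M N U) :=
  inferInstanceAs (AddCommGroup ↥(homOnSubgroup M N U))

namespace HomOn

variable {M N P Q : Mod R} {U : Opens T}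

/-- The component of a family at `V ≤ U`, as a function. -/
def ap (φ : HomOn M N U) (V : Opens T) (hV : V ≤ U) (m : Sec M V) : Sec N V := φ.1 ⟨V, hV⟩ m

theorem ap_add_right (φ : HomOn M N U) (V : Opens T) (hV : V ≤ U) (m m' : Sec M V) :
    φ.ap V hV (m + m') = φ.ap V hV m + φ.ap V hV m' := map_add _ _ _

theorem ap_zero_right (φ : HomOn M N U) (V : Opens T) (hV : V ≤ U) : φ.ap V hV (0 : Sec M V) = 0 := map_zero _

theorem ap_smul_right (φ : HomOn M N U) (V : Opens T) (hV : V ≤ U) (r : O R V) (m : Sec M V) :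
    φ.ap V hV (r • m) = r • φ.ap V hV m := φ.2.1 ⟨V, hV⟩ r m

theorem ap_res (φ : HomOn M N U) {V W : Opens T} (hV : V ≤ U) (h : W ≤ V) (m : Sec M V) :
    φ.ap W (h.trans hV) (res M h m) = res N h (φ.ap V hV m) :=
  φ.2.2 ⟨V, hV⟩ ⟨W, h.trans hV⟩ h m

theorem ap_add (φ ψ : HomOn M N U) (V : Opens T) (hV : V ≤ U) (m : Sec M V) :
    (φ + ψ).ap V hV m = φ.ap V hV m + ψ.ap V hV m := rfl

theorem ap_sub (φ ψ : HomOn M N U) (V : Opens T) (hV : V ≤ U) (m : Sec M V) :
    (φ - ψ).ap V hV m = φ.ap V hV m - ψ.ap V hV m := rfl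

theorem ap_zero (V : Opens T) (hV : V ≤ U) (m : Sec M V) : (0 : HomOn M N U).ap V hV m = (0 : Sec N V) := rfl

theorem ext' {φ ψ : HomOn M N U} (h : ∀ V hV m, φ.ap V hV m = ψ.ap V hV m) : φ = ψ := by
  apply Subtype.ext
  funext V
  ext m
  exact h V.1 V.2 m

/-- Build a family of linear maps. -/
def mk' (f : ∀ V : Opens T, V ≤ U → Sec M V → Sec N V)
    (hadd : ∀ V hV m m', f V hV (m + m') = f V hV m + f V hV m')
    (hsmul : ∀ V hV (r : O R V) m, f V hV (r • m) = r • f V hV m)
    (hmap : ∀ V W (hV : V ≤ U) (h : W ≤ V) m, f W (h.trans hV) (res M h m) = res N h (f V hV m)) : HomOn M N U :=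
  ⟨fun V => AddMonoidHom.mk' (f V.1 V.2) (hadd V.1 V.2), fun V r m => hsmul V.1 V.2 r m,
    fun V W h m => hmap V.1 W.1 V.2 h m⟩

theorem ap_mk' (f : ∀ V : Opens T, V ≤ U → Sec M V → Sec N V)
    (hadd : ∀ V hV m m', f V hV (m + m') = f V hV m + f V hV m')
    (hsmul : ∀ V hV (r : O R V) m, f V hV (r • m) = r • f V hV m)
    (hmap : ∀ V W (hV : V ≤ U) (h : W ≤ V) m, f W (h.trans hV) (res M h m) = res N h (f V hV m))
    (V : Opens T) (hV : V ≤ U) (m : Sec M V) :
    (mk' f hadd hsmul hmap).ap V hV m = f V hV m := rfl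

/-- scalar multiplication -/
def smulAux (r : O R U) (φ : HomOn M N U) : HomOn M N U :=
  mk' (fun V hV m => (resO hV r) • φ.ap V hV m)
    (fun V hV m m' => by rw [ap_add_right, smul_add])
    (fun V hV s m => by rw [ap_smul_right, smul_smul, smul_smul, mul_comm])
    (fun V W hV h m => by
      rw [ap_res, res_smul, resO_resO])

instance : Module (O R U) (HomOn M N U) where
  smul r φ := smulAux r φ
  one_smul φ := ext' fun V hV m => by
    change (resO hV (1 : O R U)) • φ.ap V hV m = _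
    rw [map_one, one_smul]
  mul_smul r s φ := ext' fun V hV m => by
    change (resO hV (r * s)) • φ.ap V hV m = (resO hV r) • (resO hV s) • φ.ap V hV m
    rw [map_mul, mul_smul]
  smul_zero r := ext' fun V hV m => by
    change (resO hV r) • (0 : Sec N V) = 0
    rw [smul_zero]
  smul_add r φ ψ := ext' fun V hV m => by
    change (resO hV r) • (φ.ap V hV m + ψ.ap V hV m) = (resO hV r) • φ.ap V hV m + (resO hV r) • ψ.ap V hV m
    rw [smul_add]
  add_smul r s φ := ext' fun V hV m => by
    change (resO hV (r + s)) • φ.ap V hV m = (resO hV r) • φ.ap V hV m + (resO hV s) • φ.ap V hV m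
    rw [map_add, add_smul]
  zero_smul φ := ext' fun V hV m => by
    change (resO hV (0 : O R U)) • φ.ap V hV m = 0
    rw [map_zero, zero_smul]

theorem ap_smul (r : O R U) (φ : HomOn M N U) (V : Opens T) (hV : V ≤ U) (m : Sec M V) :
    (r • φ).ap V hV m = (resO hV r) • φ.ap V hV m := rfl

/-- restriction of families -/
def rst {W : Opens T} (h : W ≤ U) : HomOn M N U →+ HomOn M N W where
  toFun φ := ⟨fun V => φ.1 ⟨V.1, V.2.trans h⟩, fun V r m => φ.2.1 ⟨V.1, V.2.trans h⟩ r m,
    fun V V' h' m => φ.2.2 ⟨V.1, V.2.trans h⟩ ⟨V'.1, V'.2.trans h⟩ h' m⟩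
  map_zero' := rfl
  map_add' _ _ := rfl

theorem ap_rst {W : Opens T} (h : W ≤ U) (φ : HomOn M N U) (V : Opens T) (hV : V ≤ W) (m : Sec M V) :
    (rst h φ).ap V hV m = φ.ap V (hV.trans h) m := rfl

end HomOn

variable {M N : Mod R}

theorem exists_glue_hom {ι : Type} (U : ι → Opens T) (sf : ∀ i, HomOn M N (U i))
    (hsf' : ∀ i j, HomOn.rst (inf_le_left : U i ⊓ U j ≤ U i) (sf i) = HomOn.rst (inf_le_right : U i ⊓ U j ≤ U j) (sf j)) :
    ∃ t : HomOn M N (⨆ i, U i), ∀ i, HomOn.rst (le_iSup U i) t = sf i := by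
  have hsf : ∀ i j (W : Opens T) (hi : W ≤ U i) (hj : W ≤ U j) (m : Sec M W),
      (sf i).ap W hi m = (sf j).ap W hj m := by
    intro i j W hi hj m
    have := hsf' i j
    exact congrArg (fun φ : HomOn M N (U i ⊓ U j) => φ.ap W (le_inf hi hj) m) this
  have hcov : ∀ V : Opens T, V ≤ ⨆ i, U i → V ≤ ⨆ i, V ⊓ U i := fun V hV => by
    rw [← inf_iSup_eq]; exact le_inf le_rfl hV
  -- the glued component
  have key : ∀ (V : Opens T) (hV : V ≤ ⨆ i, U i) (m : Sec M V), ∃ t : Sec N V, ∀ i,
      res N inf_le_left t = (sf i).ap (V ⊓ U i) inf_le_right (res M inf_le_left m) := by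
    intro V hV m
    refine exists_glue N (fun i => V ⊓ U i) V (hcov V hV) (fun i => inf_le_left) _ ?_
    intro i j W hi hj
    rw [← HomOn.ap_res, ← HomOn.ap_res, res_res, res_res]
    exact hsf i j W _ _ _
  choose f hf using key
  -- characterization on smaller opens
  have hf' : ∀ (V : Opens T) (hV : V ≤ ⨆ i, U i) (m : Sec M V) (i : ι) (W : Opens T) (hWV : W ≤ V) (hW : W ≤ U i),
      res N hWV (f V hV m) = (sf i).ap W hW (res M hWV m) := by
    intro V hV m i W hWV hW
    have := congrArg (res N (le_inf hWV hW)) (hf V hV m i)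
    rw [res_res, ← HomOn.ap_res, res_res] at this
    exact this
  have uniq : ∀ (V : Opens T) (hV : V ≤ ⨆ i, U i) (s t : Sec N V),
      (∀ i (W : Opens T) (hWV : W ≤ V) (_ : W ≤ U i), res N hWV s = res N hWV t) → s = t := by
    intro V hV s t h
    exact eq_of_locally N (fun i => V ⊓ U i) V (hcov V hV) (fun i => inf_le_left) s t
      fun i => h i _ _ inf_le_right
  let φ : HomOn M N (⨆ i, U i) := HomOn.mk' f
    (fun V hV m m' => uniq V hV _ _ fun i W hWV hW => by
      rw [map_add, hf' V hV _ i W hWV hW, hf' V hV _ i W hWV hW, hf' V hV _ i W hWV hW, map_add,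
        HomOn.ap_add_right])
    (fun V hV r m => uniq V hV _ _ fun i W hWV hW => by
      rw [res_smul, hf' V hV _ i W hWV hW, hf' V hV _ i W hWV hW, res_smul, HomOn.ap_smul_right])
    (fun V V' hV h m => uniq V' (h.trans hV) _ _ fun i W hWV hW => by
      rw [hf' V' _ _ i W hWV hW, res_res, res_res, hf' V hV m i W (hWV.trans h) hW])
  refine ⟨φ, ?_⟩
  intro i
  apply HomOn.ext'
  intro V hV m
  have := hf' V (hV.trans (le_iSup U i)) m i V le_rfl hV
  rw [res_self, res_self] at this
  exact this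

variable (M N) in
/-- The raw data of the internal Hom. -/
def homData : Data R where
  S := HomOn M N
  r h := HomOn.rst h
  r_self _ _ := rfl
  r_r _ _ _ := rfl
  r_smul {V W} h a s := HomOn.ext' fun V' hV' m => by
    change (resO (hV'.trans h) a) • s.ap V' (hV'.trans h) m = resO hV' (resO h a) • s.ap V' (hV'.trans h) m
    rw [resO_resO]
  ext {ι} U s t h := HomOn.ext' fun V hV m => by
    refine eq_of_locally N (fun i => V ⊓ U i) V ?_ (fun i => inf_le_left) _ _ fun i => ?_
    · rw [← inf_iSup_eq]; exact le_inf le_rfl hV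
    · rw [← HomOn.ap_res, ← HomOn.ap_res]
      exact congrArg (fun φ : HomOn M N (U i) => φ.ap (V ⊓ U i) inf_le_right (res M inf_le_left m)) (h i)
  glue := exists_glue_hom

variable (M N) in
/-- The internal Hom of sheaves of modules. -/
def homMod : Mod R := (homData M N).toMod

/-- Sections of the internal Hom are the compatible families. -/
def toHomOn {U : Opens T} (s : Sec (homMod M N) U) : HomOn M N U := s

/-- Sections of the internal Hom are the compatible families. -/
def ofHomOn {U : Opens T} (s : HomOn M N U) : Sec (homMod M N) U := s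

theorem res_homMod {U W : Opens T} (h : W ≤ U) (s : Sec (homMod M N) U) :
    toHomOn (res (homMod M N) h s) = HomOn.rst h (toHomOn s) := rfl

/-- The restriction of a morphism, as a family. -/
def ofHom (φ : M ⟶ N) (U : Opens T) : HomOn M N U :=
  HomOn.mk' (fun V _ m => app φ V m) (fun _ _ _ _ => map_add _ _ _) (fun _ _ _ _ => map_smul _ _ _)
    (fun _ _ _ h m => app_res φ h m)

theorem ap_ofHom (φ : M ⟶ N) (U V : Opens T) (hV : V ≤ U) (m : Sec M V) : (ofHom φ U).ap V hV m = app φ V m := rfl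

/-- A global family is a morphism. -/
def toHom (s : HomOn M N ⊤) : M ⟶ N :=
  homMk (fun V => AddMonoidHom.mk' (fun m => s.ap V le_top m) (fun _ _ => HomOn.ap_add_right _ _ _ _ _))
    (fun _ _ _ => HomOn.ap_smul_right _ _ _ _ _) (fun _ _ h m => HomOn.ap_res s le_top h m)

theorem app_toHom (s : HomOn M N ⊤) (V : Opens T) (m : Sec M V) : app (toHom s) V m = s.ap V le_top m := rfl

theorem toHom_ofHom (φ : M ⟶ N) : toHom (ofHom φ ⊤) = φ := hom_ext fun _ _ => rfl

theorem ofHom_toHom (s : HomOn M N ⊤) : ofHom (toHom s) ⊤ = s := rfl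

end Groth.Agent.Gaga.H975.HomMod
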